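import Mathlib

/-!
# The arithmetic of the degrees for the group of order 108.
-/

set_option autoImplicit false
set_option linter.unusedSimpArgs false
set_option linter.unusedSectionVars false
set_option linter.unusedVariables false

namespace Cfsg.Agent.Lib.H108

/-- The polynomial. -/
def polyP (x y z : ℤ) : ℤ := (x - 1) ^ 2 * (y * z * (y + z)) + (y - z) ^ 2 * (x * (1 + x))

theorem polyP_comm (x y z : ℤ) : polyP x y z = polyP x z y := by
  unfold polyP; ring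

theorem polyP_pos_one_neg {x y z : ℤ} (hx : x ≤ -8) (hy : 1 ≤ y) (hz : 1 ≤ z) : 0 < polyP x y z := by
  unfold polyP
  have h1 : 0 < (x - 1) ^ 2 := by nlinarith
  have h2 : 0 < y * z * (y + z) := by positivity
  have h3 : 0 < x * (1 + x) := by nlinarith
  have h4 : 0 ≤ (y - z) ^ 2 := sq_nonneg _
  have := mul_pos h1 h2
  have := mul_nonneg h4 h3.le
  omega

theorem polyP_all_pos {x y z : ℤ} (hx : 1 ≤ x) (hy : 1 ≤ y) (hz : 1 ≤ z) (h : polyP x y z = 0) : x = 1 := by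
  unfold polyP at h
  have h2 : 0 < y * z * (y + z) := by positivity
  have h3 : 0 < x * (1 + x) := by positivity
  have h4 : 0 ≤ (y - z) ^ 2 := sq_nonneg _
  have h5 := mul_nonneg h4 h3.le
  have h6 : 0 ≤ (x - 1) ^ 2 := sq_nonneg _
  have h7 := mul_nonneg h6 h2.le
  have h8 : (x - 1) ^ 2 * (y * z * (y + z)) = 0 := by omega
  rcases mul_eq_zero.mp h8 with h9 | h9
  · have : x - 1 = 0 := by simpa using h9
    omega
  · omega

theorem key_uv {u v : ℤ} (hu : 8 ≤ u) (hv : 8 ≤ v) : 4 * (u + v) ^ 2 ≤ u * v * (u + v) ∧ (u - v) ^ 2 ≤ (u + v) ^ 2 := by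
  constructor
  · have h1 : 4 * (u + v) ≤ u * v := by nlinarith
    have h2 : 0 < u + v := by omega
    nlinarith
  · nlinarith

theorem polyP_neg_two {x u v : ℤ} (hx : 10 ≤ x) (hu : 8 ≤ u) (hv : 8 ≤ v) : polyP x (-u) (-v) < 0 := by
  unfold polyP
  obtain ⟨h1, h2⟩ := key_uv hu hv
  have h3 : x * (1 + x) ≤ 2 * (x - 1) ^ 2 := by nlinarith
  have h4 : 0 < (x - 1) ^ 2 := by nlinarith
  have h5 : 0 < (u + v) ^ 2 := by nlinarith
  have h6 : (u - v) ^ 2 * (x * (1 + x)) ≤ (u + v) ^ 2 * (2 * (x - 1) ^ 2) :=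
    mul_le_mul h2 h3 (by positivity) (by positivity)
  have h7 : (x - 1) ^ 2 * (4 * (u + v) ^ 2) ≤ (x - 1) ^ 2 * (u * v * (u + v)) :=
    mul_le_mul_of_nonneg_left h1 h4.le
  have h8 : 0 < (x - 1) ^ 2 * (u + v) ^ 2 := mul_pos h4 h5
  have e1 : (-u) * (-v) * ((-u) + (-v)) = - (u * v * (u + v)) := by ring
  have e2 : ((-u) - (-v)) ^ 2 = (u - v) ^ 2 := by ring
  rw [e1, e2]
  nlinarith

theorem polyP_neg_three {u v w : ℤ} (hu : 8 ≤ u) (hv : 8 ≤ v) (hw : 8 ≤ w) : polyP (-u) (-v) (-w) < 0 := by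
  unfold polyP
  obtain ⟨h1, h2⟩ := key_uv hv hw
  have h3 : u * (u - 1) ≤ (u + 1) ^ 2 := by nlinarith
  have h4 : 0 < (u + 1) ^ 2 := by nlinarith
  have h5 : 0 < (v + w) ^ 2 := by nlinarith
  have h0 : 0 ≤ u * (u - 1) := by nlinarith
  have h6 : (v - w) ^ 2 * (u * (u - 1)) ≤ (v + w) ^ 2 * (u + 1) ^ 2 :=
    mul_le_mul h2 h3 h0 (by positivity)
  have h7 : (u + 1) ^ 2 * (4 * (v + w) ^ 2) ≤ (u + 1) ^ 2 * (v * w * (v + w)) :=
    mul_le_mul_of_nonneg_left h1 h4.le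
  have h8 : 0 < (u + 1) ^ 2 * (v + w) ^ 2 := mul_pos h4 h5
  have e1 : (-v) * (-w) * ((-v) + (-w)) = - (v * w * (v + w)) := by ring
  have e2 : ((-v) - (-w)) ^ 2 = (v - w) ^ 2 := by ring
  have e3 : (-u - 1) ^ 2 = (u + 1) ^ 2 := by ring
  have e4 : (-u) * (1 + (-u)) = u * (u - 1) := by ring
  rw [e1, e2, e3, e4]
  nlinarith

theorem case_congr {c : ℤ} (h : c % 9 = 1) : c = 1 ∨ 10 ≤ c ∨ c ≤ -8 := by
  omega

theorem two_neg {a b c : ℤ} (ha : a ≤ -8) (hb : b ≤ -8) (hc : c = 1 ∨ 10 ≤ c)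
    (h1 : polyP a b c = 0) (h3 : polyP c a b = 0) : False := by
  rcases hc with rfl | hc
  · have e : polyP 1 a b = 2 * (a - b) ^ 2 := by unfold polyP; ring
    rw [e] at h3
    have : a = b := by
      have : (a - b) ^ 2 = 0 := by omega
      have : a - b = 0 := by simpa using this
      omega
    subst this
    have e2 : polyP a a 1 = 2 * ((a - 1) ^ 2 * (a * (1 + a))) := by unfold polyP; ring
    rw [e2] at h1
    have h4 : 0 < (a - 1) ^ 2 := by nlinarith
    have h5 : 0 < a * (1 + a) := by nlinarith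
    have := mul_pos h4 h5
    omega
  · have := polyP_neg_two (x := c) (u := -a) (v := -b) hc (by omega) (by omega)
    simp only [neg_neg] at this
    omega

/-- The integer arithmetic. -/
theorem arith_final {c₁ c₂ c₃ : ℤ} (h1 : c₁ % 9 = 1) (h2 : c₂ % 9 = 1) (h3 : c₃ % 9 = 1)
    (e1 : polyP c₁ c₂ c₃ = 0) (e2 : polyP c₂ c₁ c₃ = 0) (e3 : polyP c₃ c₁ c₂ = 0) :
    c₁ = 1 ∧ c₂ = 1 ∧ c₃ = 1 := by
  have p1 := case_congr h1
  have p2 := case_congr h2
  have p3 := case_congr h3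
  by_cases n1 : c₁ ≤ -8 <;> by_cases n2 : c₂ ≤ -8 <;> by_cases n3 : c₃ ≤ -8
  · exfalso
    have := polyP_neg_three (u := -c₁) (v := -c₂) (w := -c₃) (by omega) (by omega) (by omega)
    simp only [neg_neg] at this
    omega
  · exfalso
    exact two_neg n1 n2 (by omega) e1 e3
  · exfalso
    exact two_neg n1 n3 (by omega) (by rw [polyP_comm]; exact e1) e2
  · exfalso
    have := polyP_pos_one_neg (x := c₁) (y := c₂) (z := c₃) n1 (by omega) (by omega)
    omega
  · exfalso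
    exact two_neg n2 n3 (by omega) (by rw [polyP_comm]; exact e2) e1
  · exfalso
    have := polyP_pos_one_neg (x := c₂) (y := c₁) (z := c₃) n2 (by omega) (by omega)
    omega
  · exfalso
    have := polyP_pos_one_neg (x := c₃) (y := c₁) (z := c₂) n3 (by omega) (by omega)
    omega
  · exact ⟨polyP_all_pos (by omega) (by omega) (by omega) e1, polyP_all_pos (by omega) (by omega) (by omega) e2,
      polyP_all_pos (by omega) (by omega) (by omega) e3⟩

/-- The Titu identity, in the equality case. -/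
theorem titu_eq {x z a b : ℚ} (ha : a ≠ 0) (hb : b ≠ 0) (hab : a + b ≠ 0)
    (h : x ^ 2 / a + z ^ 2 / b = (x + z) ^ 2 / (a + b)) : x * b = z * a := by
  have h1 : x ^ 2 / a + z ^ 2 / b - (x + z) ^ 2 / (a + b) = (x * b - z * a) ^ 2 / (a * b * (a + b)) := by
    field_simp
    ring
  rw [h, sub_self] at h1
  have h2 : (x * b - z * a) ^ 2 = 0 := by
    have h3 : a * b * (a + b) ≠ 0 := by positivity
    field_simp at h1
    nlinarith
  have h3 : x * b - z * a = 0 := by simpa using h2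
  linarith

/-- The key rational computation. -/
theorem class_poly {ci cj ck yi yj yk κ : ℚ} (h1 : ci ≠ 0) (h2 : cj ≠ 0) (h3 : ck ≠ 0)
    (h4 : 1 + ci ≠ 0) (h5 : 1 + cj ≠ 0) (h6 : 1 + ck ≠ 0) (h7 : cj + ck ≠ 0) (h8 : ci + ck ≠ 0)
    (h9 : ci + cj ≠ 0) (h10 : 1 + ci + cj + ck ≠ 0) (hκ : 0 < κ)
    (hA : 1 + yi ^ 2 / ci + yj ^ 2 / cj + yk ^ 2 / ck =
      (1 + yi + yj + yk) ^ 2 / (1 + ci + cj + ck) + κ / 3)
    (hBi : (1 + yi) ^ 2 / (1 + ci) + (yj + yk) ^ 2 / (cj + ck) =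
      (1 + yi + yj + yk) ^ 2 / (1 + ci + cj + ck) + κ / 3)
    (hBj : (1 + yj) ^ 2 / (1 + cj) + (yi + yk) ^ 2 / (ci + ck) =
      (1 + yi + yj + yk) ^ 2 / (1 + ci + cj + ck))
    (hBk : (1 + yk) ^ 2 / (1 + ck) + (yi + yj) ^ 2 / (ci + cj) =
      (1 + yi + yj + yk) ^ 2 / (1 + ci + cj + ck)) :
    (ci - 1) ^ 2 * (cj * ck * (cj + ck)) + (cj - ck) ^ 2 * (ci * (1 + ci)) = 0 := by
  set f := 1 + ci + cj + ck with hf
  set Y := 1 + yi + yj + yk with hY
  have e1 : (1 + yj) * (ci + ck) = (yi + yk) * (1 + cj) := by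
    refine titu_eq h5 h8 ?_ ?_
    · have : 1 + cj + (ci + ck) = f := by rw [hf]; ring
      rw [this]; exact h10
    · have e1 : 1 + cj + (ci + ck) = f := by rw [hf]; ring
      have e2 : 1 + yj + (yi + yk) = Y := by rw [hY]; ring
      rw [e1, e2]; exact hBj
  have e2 : (1 + yk) * (ci + cj) = (yi + yj) * (1 + ck) := by
    refine titu_eq h6 h9 ?_ ?_
    · have : 1 + ck + (ci + cj) = f := by rw [hf]; ring
      rw [this]; exact h10
    · have e1 : 1 + ck + (ci + cj) = f := by rw [hf]; ring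
      have e2 : 1 + yk + (yi + yj) = Y := by rw [hY]; ring
      rw [e1, e2]; exact hBk
  set ρ := Y / f with hρ
  have hYρ : Y = ρ * f := by
    rw [hρ]; field_simp
  have e3 : 1 + yj = ρ * (1 + cj) := by
    have : (1 + yj) * f = (1 + cj) * Y := by
      rw [hf, hY]; linear_combination e1
    rw [hYρ] at this
    have h : (1 + yj - ρ * (1 + cj)) * f = 0 := by linear_combination this
    have := (mul_eq_zero.mp h).resolve_right h10
    linarith
  have e4 : 1 + yk = ρ * (1 + ck) := by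
    have : (1 + yk) * f = (1 + ck) * Y := by
      rw [hf, hY]; linear_combination e2
    rw [hYρ] at this
    have h : (1 + yk - ρ * (1 + ck)) * f = 0 := by linear_combination this
    have := (mul_eq_zero.mp h).resolve_right h10
    linarith
  have hyj : yj = ρ * (1 + cj) - 1 := by linarith
  have hyk : yk = ρ * (1 + ck) - 1 := by linarith
  have hyi : yi = ρ * (ci - 1) + 1 := by
    have : Y = 1 + yi + yj + yk := hY
    rw [hYρ, hf] at this
    rw [hyj, hyk] at this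
    linarith
  set t := 1 - ρ with ht
  have hW : Y ^ 2 / f = ρ ^ 2 * f := by
    rw [hYρ]; field_simp
  have hA' : 1 + yi ^ 2 / ci + yj ^ 2 / cj + yk ^ 2 / ck =
      ρ ^ 2 * f + t ^ 2 * (1 + 1 / ci + 1 / cj + 1 / ck) := by
    rw [hyi, hyj, hyk, ht, hf]
    field_simp
    ring
  have hB' : (1 + yi) ^ 2 / (1 + ci) + (yj + yk) ^ 2 / (cj + ck) =
      ρ ^ 2 * f + 4 * t ^ 2 * (1 / (1 + ci) + 1 / (cj + ck)) := by
    rw [hyi, hyj, hyk, ht, hf]
    field_simp
    ring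
  rw [hA', hW] at hA
  rw [hB', hW] at hBi
  have hκ1 : t ^ 2 * (1 + 1 / ci + 1 / cj + 1 / ck) = κ / 3 := by linarith
  have hκ2 : 4 * t ^ 2 * (1 / (1 + ci) + 1 / (cj + ck)) = κ / 3 := by linarith
  have ht0 : t ≠ 0 := by
    rintro h0
    rw [h0] at hκ1
    have : κ = 0 := by linarith
    linarith
  have hE : (1 + 1 / ci + 1 / cj + 1 / ck) = 4 * (1 / (1 + ci) + 1 / (cj + ck)) := by
    have h : t ^ 2 * ((1 + 1 / ci + 1 / cj + 1 / ck) - 4 * (1 / (1 + ci) + 1 / (cj + ck))) = 0 := by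
      linear_combination hκ1 - hκ2
    have := (mul_eq_zero.mp h).resolve_left (pow_ne_zero 2 ht0)
    linarith
  field_simp at hE
  linear_combination hE

end Cfsg.Agent.Lib.H108
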