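import Cfsg.Agent.Lib.H108.Table

/-!
# The linear characters multiply.
-/

set_option autoImplicit false

namespace Cfsg.Agent.Lib.H108

theorem sub_mul_0 : ∀ m m', subB (lb 0) m = true → subB (lb 0) m' = true → subB (lb 0) (m * m') = true := by decide +kernel

theorem nu_mul_0 : ∀ m m', subB (lb 0) m = true → subB (lb 0) m' = true → nu (lb 0) (m * m') = rm (nu (lb 0) m) (nu (lb 0) m') := by decide +kernel

theorem sub_mul_1 : ∀ m m', subB (lb 1) m = true → subB (lb 1) m' = true → subB (lb 1) (m * m') = true := by decide +kernel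

theorem nu_mul_1 : ∀ m m', subB (lb 1) m = true → subB (lb 1) m' = true → nu (lb 1) (m * m') = rm (nu (lb 1) m) (nu (lb 1) m') := by decide +kernel

theorem sub_mul_2 : ∀ m m', subB (lb 2) m = true → subB (lb 2) m' = true → subB (lb 2) (m * m') = true := by decide +kernel

theorem nu_mul_2 : ∀ m m', subB (lb 2) m = true → subB (lb 2) m' = true → nu (lb 2) (m * m') = rm (nu (lb 2) m) (nu (lb 2) m') := by decide +kernel

theorem sub_mul_3 : ∀ m m', subB (lb 3) m = true → subB (lb 3) m' = true → subB (lb 3) (m * m') = true := by decide +kernel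

theorem nu_mul_3 : ∀ m m', subB (lb 3) m = true → subB (lb 3) m' = true → nu (lb 3) (m * m') = rm (nu (lb 3) m) (nu (lb 3) m') := by decide +kernel

theorem sub_mul_4 : ∀ m m', subB (lb 4) m = true → subB (lb 4) m' = true → subB (lb 4) (m * m') = true := by decide +kernel

theorem nu_mul_4 : ∀ m m', subB (lb 4) m = true → subB (lb 4) m' = true → nu (lb 4) (m * m') = rm (nu (lb 4) m) (nu (lb 4) m') := by decide +kernel

theorem sub_mul_5 : ∀ m m', subB (lb 5) m = true → subB (lb 5) m' = true → subB (lb 5) (m * m') = true := by decide +kernel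

theorem nu_mul_5 : ∀ m m', subB (lb 5) m = true → subB (lb 5) m' = true → nu (lb 5) (m * m') = rm (nu (lb 5) m) (nu (lb 5) m') := by decide +kernel

theorem sub_mul_6 : ∀ m m', subB (lb 6) m = true → subB (lb 6) m' = true → subB (lb 6) (m * m') = true := by decide +kernel

theorem nu_mul_6 : ∀ m m', subB (lb 6) m = true → subB (lb 6) m' = true → nu (lb 6) (m * m') = rm (nu (lb 6) m) (nu (lb 6) m') := by decide +kernel

theorem sub_mul_7 : ∀ m m', subB (lb 7) m = true → subB (lb 7) m' = true → subB (lb 7) (m * m') = true := by decide +kernel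

theorem nu_mul_7 : ∀ m m', subB (lb 7) m = true → subB (lb 7) m' = true → nu (lb 7) (m * m') = rm (nu (lb 7) m) (nu (lb 7) m') := by decide +kernel

theorem sub_mul_8 : ∀ m m', subB (lb 8) m = true → subB (lb 8) m' = true → subB (lb 8) (m * m') = true := by decide +kernel

theorem nu_mul_8 : ∀ m m', subB (lb 8) m = true → subB (lb 8) m' = true → nu (lb 8) (m * m') = rm (nu (lb 8) m) (nu (lb 8) m') := by decide +kernel

theorem sub_mul_9 : ∀ m m', subB (lb 9) m = true → subB (lb 9) m' = true → subB (lb 9) (m * m') = true := by decide +kernel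

theorem nu_mul_9 : ∀ m m', subB (lb 9) m = true → subB (lb 9) m' = true → nu (lb 9) (m * m') = rm (nu (lb 9) m) (nu (lb 9) m') := by decide +kernel

theorem sub_mul_10 : ∀ m m', subB (lb 10) m = true → subB (lb 10) m' = true → subB (lb 10) (m * m') = true := by decide +kernel

theorem nu_mul_10 : ∀ m m', subB (lb 10) m = true → subB (lb 10) m' = true → nu (lb 10) (m * m') = rm (nu (lb 10) m) (nu (lb 10) m') := by decide +kernel

theorem sub_mul : ∀ l m m', subB (lb l) m = true → subB (lb l) m' = true → subB (lb l) (m * m') = true := by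
  intro l
  fin_cases l
  · exact sub_mul_0
  · exact sub_mul_1
  · exact sub_mul_2
  · exact sub_mul_3
  · exact sub_mul_4
  · exact sub_mul_5
  · exact sub_mul_6
  · exact sub_mul_7
  · exact sub_mul_8
  · exact sub_mul_9
  · exact sub_mul_10

theorem nu_mul : ∀ l m m', subB (lb l) m = true → subB (lb l) m' = true → nu (lb l) (m * m') = rm (nu (lb l) m) (nu (lb l) m') := by
  intro l
  fin_cases l
  · exact nu_mul_0
  · exact nu_mul_1
  · exact nu_mul_2
  · exact nu_mul_3
  · exact nu_mul_4
  · exact nu_mul_5
  · exact nu_mul_6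
  · exact nu_mul_7
  · exact nu_mul_8
  · exact nu_mul_9
  · exact nu_mul_10

end Cfsg.Agent.Lib.H108
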