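import Cfsg.Agent.Lib.H108.Table

/-!
# The functions are induced.
-/

set_option autoImplicit false

namespace Cfsg.Agent.Lib.H108

theorem nu_ind_0 : ∀ h, ∑ x : M, nu (lb 0) (x⁻¹ * h * x) = rs (cardS (lb 0)) (fn (lb 0) h) := by decide +kernel

theorem nu_ind_1 : ∀ h, ∑ x : M, nu (lb 1) (x⁻¹ * h * x) = rs (cardS (lb 1)) (fn (lb 1) h) := by decide +kernel

theorem nu_ind_2 : ∀ h, ∑ x : M, nu (lb 2) (x⁻¹ * h * x) = rs (cardS (lb 2)) (fn (lb 2) h) := by decide +kernel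

theorem nu_ind_3 : ∀ h, ∑ x : M, nu (lb 3) (x⁻¹ * h * x) = rs (cardS (lb 3)) (fn (lb 3) h) := by decide +kernel

theorem nu_ind_4 : ∀ h, ∑ x : M, nu (lb 4) (x⁻¹ * h * x) = rs (cardS (lb 4)) (fn (lb 4) h) := by decide +kernel

theorem nu_ind_5 : ∀ h, ∑ x : M, nu (lb 5) (x⁻¹ * h * x) = rs (cardS (lb 5)) (fn (lb 5) h) := by decide +kernel

theorem nu_ind_6 : ∀ h, ∑ x : M, nu (lb 6) (x⁻¹ * h * x) = rs (cardS (lb 6)) (fn (lb 6) h) := by decide +kernel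

theorem nu_ind_7 : ∀ h, ∑ x : M, nu (lb 7) (x⁻¹ * h * x) = rs (cardS (lb 7)) (fn (lb 7) h) := by decide +kernel

theorem nu_ind_8 : ∀ h, ∑ x : M, nu (lb 8) (x⁻¹ * h * x) = rs (cardS (lb 8)) (fn (lb 8) h) := by decide +kernel

theorem nu_ind_9 : ∀ h, ∑ x : M, nu (lb 9) (x⁻¹ * h * x) = rs (cardS (lb 9)) (fn (lb 9) h) := by decide +kernel

theorem nu_ind_10 : ∀ h, ∑ x : M, nu (lb 10) (x⁻¹ * h * x) = rs (cardS (lb 10)) (fn (lb 10) h) := by decide +kernel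

theorem nu_ind : ∀ l h, ∑ x : M, nu (lb l) (x⁻¹ * h * x) = rs (cardS (lb l)) (fn (lb l) h) := by
  intro l
  fin_cases l
  · exact nu_ind_0
  · exact nu_ind_1
  · exact nu_ind_2
  · exact nu_ind_3
  · exact nu_ind_4
  · exact nu_ind_5
  · exact nu_ind_6
  · exact nu_ind_7
  · exact nu_ind_8
  · exact nu_ind_9
  · exact nu_ind_10

end Cfsg.Agent.Lib.H108
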