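import Cfsg.Agent.Lib.H108.Table2
import Cfsg.Agent.Lib.H108.Table3
import Cfsg.Agent.Lib.H108.Table4
import Cfsg.Agent.Lib.Char.Coherent
import Cfsg.Agent.Lib.Char.Burnside
import Cfsg.Agent.Lib.Char.Induced

/-!
# The fifteen functions on the model are characters.
-/

set_option autoImplicit false
set_option linter.unusedSimpArgs false
set_option linter.unusedSectionVars false
set_option linter.unusedVariables false

open scoped ComplexConjugate

namespace Cfsg.Agent.Lib.H108

open Cfsg Cfsg.Agent.Lib.Char

/-- A primitive cube root of unity. -/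
noncomputable def om3 : ℂ := ⟨-1 / 2, Real.sqrt 3 / 2⟩

theorem sqrt3_sq : Real.sqrt 3 * Real.sqrt 3 = 3 := Real.mul_self_sqrt (by norm_num)

theorem om3_eq : om3 ^ 2 + om3 + 1 = 0 := by
  apply Complex.ext
  · simp [om3, pow_two]
    nlinarith [sqrt3_sq]
  · simp [om3, pow_two]
    ring

theorem conj_om3 : conj om3 = -1 - om3 := by
  apply Complex.ext
  · simp [om3]; norm_num
  · simp [om3]

/-- Reading a pair as an element of `ℤ[ω]`. -/
noncomputable def iota (x : RR) : ℂ := (x.1 : ℂ) + (x.2 : ℂ) * om3

theorem iota_add (x y : RR) : iota (x + y) = iota x + iota y := by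
  simp [iota]; ring

theorem iota_sub (x y : RR) : iota (x - y) = iota x - iota y := by
  simp [iota]; ring

theorem iota_zero : iota 0 = 0 := by
  simp [iota]

theorem iota_mk (n : ℤ) : iota (n, 0) = n := by
  simp [iota]

theorem iota_rm (x y : RR) : iota (rm x y) = iota x * iota y := by
  simp only [iota, rm]
  push_cast
  linear_combination (-(x.2 : ℂ) * y.2) * om3_eq

theorem iota_rc (x : RR) : iota (rc x) = conj (iota x) := by
  simp only [iota, rc, map_add, map_mul, map_intCast, conj_om3]
  push_cast
  ring

theorem iota_rs (n : ℤ) (y : RR) : iota (rs n y) = n * iota y := by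
  simp only [iota, rs]
  push_cast
  ring

theorem iota_sum {ι : Type*} (s : Finset ι) (f : ι → RR) : iota (∑ i ∈ s, f i) = ∑ i ∈ s, iota (f i) := by
  classical
  induction s using Finset.induction_on with
  | empty => simp [iota_zero]
  | insert a s ha ih => rw [Finset.sum_insert ha, Finset.sum_insert ha, iota_add, ih]

/-- The subgroups we induce from. -/
def subG (l : Fin 11) : Subgroup M where
  carrier := {m | subB (lb l) m = true}
  mul_mem' := fun {a b} ha hb => sub_mul l a b ha hb
  one_mem' := sub_one l
  inv_mem' := fun {a} ha => sub_inv l a ha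

theorem mem_subG (l : Fin 11) (m : M) : m ∈ subG l ↔ subB (lb l) m = true := Iff.rfl

theorem nu_ne (l : Fin 11) {m : M} (hm : subB (lb l) m = true) : iota (nu (lb l) m) ≠ 0 := by
  intro h
  have h1 := congrArg iota (nu_unit l m hm)
  rw [iota_rm, h, zero_mul] at h1
  simp [iota] at h1

/-- The linear character we induce, as a homomorphism. -/
noncomputable def nuHom (l : Fin 11) : subG l →* ℂˣ :=
  MonoidHom.mk' (fun s => Units.mk0 (iota (nu (lb l) s)) (nu_ne l s.2)) (by
    intro a b
    apply Units.ext
    simp only [Units.val_mk0, Units.val_mul, Subgroup.coe_mul]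
    rw [nu_mul l _ _ a.2 b.2, iota_rm])

theorem nuHom_apply (l : Fin 11) (s : subG l) : ((nuHom l s : ℂˣ) : ℂ) = iota (nu (lb l) s) := rfl

theorem card_subG (l : Fin 11) : Nat.card (subG l) = cardS (lb l) := by
  classical
  rw [← sub_card l, Nat.card_eq_fintype_card]
  exact Fintype.card_of_subtype _ (fun x => by simp [mem_subG])

theorem cardS_ne (l : Fin 11) : cardS (lb l) ≠ 0 := by
  revert l; decide +kernel

/-- The induced functions are characters. -/
theorem fn_isChar (l : Fin 11) : IsCharacter M (fun m => iota (fn (lb l) m)) := by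
  classical
  have h1 := indFun_isCharacter (subG l) (IsIrrCharacter.isCharacter (isIrrCharacter_of_hom (nuHom l)))
  convert h1 using 1
  funext h
  rw [indFun_apply]
  have hext : ∀ y : M, extendByZero (subG l) (fun g => ((nuHom l g : ℂˣ) : ℂ)) y = iota (nu (lb l) y) := by
    intro y
    by_cases hy : y ∈ subG l
    · rw [extendByZero_of_mem _ _ hy, nuHom_apply]
    · rw [extendByZero_of_not_mem _ _ hy]
      have : subB (lb l) y = false := by
        rw [mem_subG] at hy
        simpa using hy
      rw [nu_zero l y this, iota_zero]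
  simp only [hext]
  rw [← iota_sum, nu_ind l h, iota_rs, card_subG]
  have h2 : ((cardS (lb l) : ℕ) : ℂ) ≠ 0 := by exact_mod_cast cardS_ne l
  push_cast
  field_simp

theorem sz_add : ∀ s t : Fin 2, sz (s + t) = sz s * sz t := by decide +kernel

theorem lamZ_mul (a : Fin 4) (m m' : M) : lamZ a (m * m') = lamZ a m * lamZ a m' := by
  fin_cases a
  · simp [lamZ]
  · simp only [lamZ, M.mul_def]
    simp
    rw [add_swap₂, sz_add]
  · simp only [lamZ, M.mul_def]
    simp [sz_add]
  · simp only [lamZ, M.mul_def]
    simp [sz_add]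

theorem lamZ_ne : ∀ (a : Fin 4) (m : M), lamZ a m ≠ 0 := by decide +kernel

/-- The linear characters as homomorphisms. -/
noncomputable def lamHom (a : Fin 4) : M →* ℂˣ :=
  MonoidHom.mk' (fun m => Units.mk0 (lamZ a m : ℂ) (by exact_mod_cast lamZ_ne a m)) (by
    intro x y
    apply Units.ext
    simp [lamZ_mul])

theorem lam_isChar (a : Fin 4) : IsCharacter M (fun m => (lamZ a m : ℂ)) :=
  IsIrrCharacter.isCharacter (isIrrCharacter_of_hom (lamHom a))

theorem iota_al (l : Fin 11) (m : M) :
    iota (al l m) = iota (fn (lb l) m) - ∑ a, ((mult l a : ℤ) : ℂ) * (lamZ a m : ℂ) := by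
  unfold al
  rw [iota_sub, iota_mk]
  push_cast
  rfl

theorem al_gen (l : Fin 11) : IsGeneralizedCharacter M (fun m => iota (al l m)) := by
  have h : (fun m => iota (al l m)) = (fun m => iota (fn (lb l) m)) -
      ∑ a, ((mult l a : ℤ) : ℂ) • (fun m => (lamZ a m : ℂ)) := by
    funext m
    rw [iota_al]
    simp [Finset.sum_apply]
  rw [h]
  refine IsGeneralizedCharacter.sub (IsGeneralizedCharacter.of_isCharacter (fn_isChar l))
    (IsGeneralizedCharacter.sum _ fun a _ => ?_)
  exact IsGeneralizedCharacter.intCast_smul (IsGeneralizedCharacter.of_isCharacter (lam_isChar a)) _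

theorem al_class (l : Fin 11) (g m : M) : iota (al l (g * m * g⁻¹)) = iota (al l m) :=
  (IsGeneralizedCharacter.isClassFunction (al_gen l)) m g

theorem al_zero (l : Fin 11) (m : M) (h : m * m * m * m = 1) : iota (al l m) = 0 := by
  rw [al_van l m h, iota_zero]

theorem sum_al_gram (l l' : Fin 11) :
    ∑ m : M, iota (al l m) * conj (iota (al l' m)) = 108 * (gram l l' : ℂ) := by
  have h := congrArg iota (al_gram l l')
  rw [iota_sum] at h
  simp only [iota_rm, iota_rc] at h
  rw [h, iota_mk]
  push_cast
  ring

theorem sum_al_one (l : Fin 11) : ∑ m : M, iota (al l m) = 108 * (- (mult l 0 : ℤ) : ℂ) := by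
  have h := congrArg iota (al_one l)
  rw [iota_sum] at h
  rw [h, iota_mk]
  push_cast
  ring

end Cfsg.Agent.Lib.H108
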