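import Cfsg.Agent.Lib.H108.Table

/-!
# Small facts about the model.
-/

set_option autoImplicit false

namespace Cfsg.Agent.Lib.H108

/-- The three involutions. -/
def vv (i : Fin 3) : M := ![⟨0, 0, 0, 1, 1⟩, ⟨0, 0, 0, 1, 0⟩, ⟨0, 0, 0, 0, 1⟩] i

/-- The coordinates on the elementary abelian part. -/
def coord (i : Fin 3) (x : M) : Fin 3 := ![x.a, x.b, x.c] i

/-- The involutions in a coset. -/
def Cos (i : Fin 3) (m : M) : Bool := decide (m.s = (vv i).s ∧ m.u = (vv i).u ∧ coord i m = 0)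

/-- The elements of order three we count on. -/
def six (x : M) : Bool := inL x && decide (x.s = 0 ∧ x.u = 0)

/-- The elements of order six. -/
def ev (i : Fin 3) : M := ![⟨1, 0, 0, 1, 1⟩, ⟨0, 1, 0, 1, 0⟩, ⟨0, 0, 1, 0, 1⟩] i

theorem inv_cos_pair : ∀ x, six x = true → ∀ a : M, (a * a = 1 ∧ a ≠ 1 ∧ (a⁻¹ * x) * (a⁻¹ * x) = 1 ∧
    a⁻¹ * x ≠ 1) → ∃ i, Cos i a = true ∧ Cos i (a⁻¹ * x) = true := by
  decide +kernel

theorem cos_conj : ∀ i m, Cos i m = true → ∃ g : M, g * m * g⁻¹ = vv i := by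
  decide +kernel

theorem cos_count : ∀ i x, six x = true →
    (Finset.univ.filter (fun a : M => Cos i a = true ∧ Cos i (a⁻¹ * x) = true)).card =
      if coord i x = 0 then 9 else 0 := by
  decide +kernel

theorem six_four : ∀ x, six x = true → x * x * x * x ≠ 1 ∧ x⁻¹ * x⁻¹ * x⁻¹ * x⁻¹ ≠ 1 := by
  decide +kernel

theorem vv_invol : ∀ i, vv i * vv i = 1 ∧ vv i ≠ 1 := by decide +kernel

theorem Q_rep : ∀ m : M, m.c = 0 → m.s = 0 → m.u = 0 → m ≠ 1 →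
    ∃ x, inL x = true ∧ x.s = 0 ∧ x.u = 0 ∧ clP x m = true := by
  decide +kernel

theorem T_lam : ∀ (a : Fin 4) (x : M), x.s = 0 → x.u = 0 → lamZ a x = 1 := by decide +kernel

theorem ev_L : ∀ i, inL (ev i) = true := by decide +kernel

theorem ev_cube : ∀ i, ev i * ev i * ev i = vv i := by decide +kernel

theorem ev_six : ∀ i, ev i * ev i * ev i * (ev i * ev i * ev i) = 1 := by decide +kernel

theorem lam_ev : ∀ a i, lamZ a (ev i) = lamZ a (vv i) := by decide +kernel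

theorem lam_vv : ∀ i j : Fin 3, i ≠ j → lamZ i.succ (vv i) = 1 ∧ lamZ i.succ (vv j) = -1 := by decide +kernel

theorem four_T : ∀ m : M, (m * m * m * m).s = 0 ∧ (m * m * m * m).u = 0 := by decide +kernel

theorem cube_T : ∀ m : M, m * m * m = 1 → m.s = 0 ∧ m.u = 0 := by decide +kernel

theorem T_cube : ∀ m : M, m.s = 0 → m.u = 0 → m * m * m = 1 := by decide +kernel

theorem T_comm : ∀ m m' : M, m.s = 0 → m.u = 0 → m'.s = 0 → m'.u = 0 → m * m' = m' * m := by decide +kernel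

theorem card_T : (Finset.univ.filter (fun m : M => m.s = 0 ∧ m.u = 0)).card = 27 := by decide +kernel

theorem card_Q : (Finset.univ.filter (fun m : M => m.c = 0 ∧ m.s = 0 ∧ m.u = 0)).card = 9 := by decide +kernel

theorem Q_mul : ∀ m m' : M, m.c = 0 → m.s = 0 → m.u = 0 → m'.c = 0 → m'.s = 0 → m'.u = 0 →
    (m * m').c = 0 ∧ (m * m').s = 0 ∧ (m * m').u = 0 := by decide +kernel

theorem Q_inv : ∀ m : M, m.c = 0 → m.s = 0 → m.u = 0 → (m⁻¹).c = 0 ∧ (m⁻¹).s = 0 ∧ (m⁻¹).u = 0 := by decide +kernel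

theorem T_mul : ∀ m m' : M, m.s = 0 → m.u = 0 → m'.s = 0 → m'.u = 0 → (m * m').s = 0 ∧ (m * m').u = 0 := by
  decide +kernel

theorem T_inv : ∀ m : M, m.s = 0 → m.u = 0 → (m⁻¹).s = 0 ∧ (m⁻¹).u = 0 := by decide +kernel

theorem T_normal : ∀ g m : M, m.s = 0 → m.u = 0 → (g * m * g⁻¹).s = 0 ∧ (g * m * g⁻¹).u = 0 := by
  decide +kernel

theorem gens_L : inL g₁ = true ∧ inL g₂ = true ∧ inL g₃ = true := by decide +kernel

theorem lam_gens : ∀ a : Fin 4, lamZ a g₁ = 1 ∧ lamZ a g₂ = 1 ∧ lamZ a g₃ = 1 := by decide +kernel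

theorem g45 : g₄ = vv 2 ∧ g₅ = vv 1 := by decide +kernel

theorem lam_form : ∀ (a : Fin 4) (m : M), lamZ a m = lamZ a (vv 1) ^ m.s.val * lamZ a (vv 2) ^ m.u.val := by
  decide +kernel

theorem M_T_gen : ∀ m : M, m.s = 0 → m.u = 0 → m = g₁ ^ m.a.val * g₂ ^ m.b.val * g₃ ^ m.c.val := by
  decide +kernel

/-- The values of the fifteen functions at the six elements. -/
theorem fn_e1 : ∀ l, (fn (lb l) ⟨1, 0, 0, 0, 0⟩).1 = ![-1, 2, 2, -1, 2, 2, 4, -2, -2, -2, -2] l := by decide +kernel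
theorem fn_e2 : ∀ l, (fn (lb l) ⟨0, 1, 0, 0, 0⟩).1 = ![2, -1, 2, 2, -1, 2, -2, 4, -2, -2, -2] l := by decide +kernel
theorem fn_e3 : ∀ l, (fn (lb l) ⟨0, 0, 1, 0, 0⟩).1 = ![2, 2, -1, 2, 2, -1, -2, -2, 4, -2, -2] l := by decide +kernel
theorem fn_e12 : ∀ l, (fn (lb l) ⟨1, 1, 0, 0, 0⟩).1 = ![-1, -1, 2, -1, -1, 2, -2, -2, 1, 1, 1] l := by decide +kernel
theorem fn_e13 : ∀ l, (fn (lb l) ⟨1, 0, 1, 0, 0⟩).1 = ![-1, 2, -1, -1, 2, -1, -2, 1, -2, 1, 1] l := by decide +kernel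
theorem fn_e23 : ∀ l, (fn (lb l) ⟨0, 1, 1, 0, 0⟩).1 = ![2, -1, -1, 2, -1, -1, 1, -2, -2, 1, 1] l := by decide +kernel

theorem six_all : six ⟨1, 0, 0, 0, 0⟩ = true ∧ six ⟨0, 1, 0, 0, 0⟩ = true ∧ six ⟨0, 0, 1, 0, 0⟩ = true ∧
    six ⟨1, 1, 0, 0, 0⟩ = true ∧ six ⟨1, 0, 1, 0, 0⟩ = true ∧ six ⟨0, 1, 1, 0, 0⟩ = true := by decide +kernel

theorem six_L : ∀ x, six x = true → inL x = true := by decide +kernel

end Cfsg.Agent.Lib.H108
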