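import Cfsg.Agent.Lib.H108.Values
import Cfsg.Agent.Lib.H108.Table5
import Cfsg.Agent.Lib.H108.Arith

/-!
# Counting pairs of involutions; the degree equations.
-/

set_option autoImplicit false
set_option linter.unusedSimpArgs false
set_option linter.unusedSectionVars false
set_option linter.unusedVariables false

open scoped ComplexConjugate

namespace Cfsg.Agent.Lib.H108

open Cfsg Cfsg.Agent.Lib.Char

universe u

variable {G : Type u} [Group G] [Fintype G] {H : Subgroup G} (P : M ≃* H)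

open Classical in
/-- The number of pairs. -/
theorem count_eq
    (hTI : ∀ (m m' : M) (g : G), m * m * m * m ≠ 1 → m' * m' * m' * m' ≠ 1 →
      g⁻¹ * PP P m * g = PP P m' → g ∈ H)
    (hnc : ∀ i j, IsConj (PP P (vv i)) (PP P (vv j)) → i = j) (i : Fin 3) {x : M} (hx : six x = true) :
    (Finset.univ.filter (fun a : G => IsConj (PP P (vv i)) a ∧ IsConj (PP P (vv i)) (a⁻¹ * PP P x))).card =
      if coord i x = 0 then 9 else 0 := by
  classical
  rw [← cos_count i x hx]
  have hconj : ∀ j m, Cos j m = true → IsConj (PP P m) (PP P (vv j)) := by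
    intro j m hm
    obtain ⟨g, hg⟩ := cos_conj j m hm
    rw [isConj_iff]
    refine ⟨PP P g, ?_⟩
    rw [← hg, PP_mul, PP_mul, PP_inv]
  have hset : Finset.univ.filter (fun a : G => IsConj (PP P (vv i)) a ∧ IsConj (PP P (vv i)) (a⁻¹ * PP P x)) =
      (Finset.univ.filter (fun a : M => Cos i a = true ∧ Cos i (a⁻¹ * x) = true)).image (PP P) := by
    ext a
    simp only [Finset.mem_filter, Finset.mem_univ, true_and, Finset.mem_image]
    constructor
    · rintro ⟨h1, h2⟩
      have hinv : ∀ y : G, IsConj (PP P (vv i)) y → y * y = 1 ∧ y ≠ 1 := by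
        intro y hy
        rw [isConj_iff] at hy
        obtain ⟨c, rfl⟩ := hy
        obtain ⟨v1, v2⟩ := vv_invol i
        constructor
        · have e : c * PP P (vv i) * c⁻¹ * (c * PP P (vv i) * c⁻¹) = c * (PP P (vv i) * PP P (vv i)) * c⁻¹ := by group
          rw [e, ← PP_mul, v1, PP_one]; group
        · intro h
          have h3 : PP P (vv i) = 1 := by
            have : c * PP P (vv i) * c⁻¹ = 1 := h
            have h4 : PP P (vv i) = c⁻¹ * (c * PP P (vv i) * c⁻¹) * c := by group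
            rw [h4, this]; group
          apply v2
          apply PP_inj P
          rw [h3, PP_one]
      obtain ⟨a1, a2⟩ := hinv a h1
      obtain ⟨b1, b2⟩ := hinv _ h2
      obtain ⟨f1, f2⟩ := six_four x hx
      have hainv : a⁻¹ = a := by
        rw [inv_eq_iff_mul_eq_one]; exact a1
      have hmem : a ∈ H := by
        refine hTI x x⁻¹ a f1 f2 ?_
        rw [PP_inv]
        have e : (PP P x)⁻¹ = (a⁻¹ * PP P x)⁻¹ * a⁻¹ := by group
        have hb : (a⁻¹ * PP P x)⁻¹ = a⁻¹ * PP P x := by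
          rw [inv_eq_iff_mul_eq_one]; exact b1
        rw [e, hb, hainv]
      obtain ⟨m, rfl⟩ := exists_PP P hmem
      have m1 : m * m = 1 := by
        apply PP_inj P
        rw [PP_mul, a1, PP_one]
      have m2 : m ≠ 1 := by
        rintro rfl
        exact a2 (PP_one P)
      have e : (PP P m)⁻¹ * PP P x = PP P (m⁻¹ * x) := by rw [PP_mul, PP_inv]
      rw [e] at b1 b2 h2
      have m3 : (m⁻¹ * x) * (m⁻¹ * x) = 1 := by
        apply PP_inj P
        rw [PP_mul, b1, PP_one]
      have m4 : m⁻¹ * x ≠ 1 := by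
        intro h
        rw [h] at b2
        exact b2 (PP_one P)
      obtain ⟨j, c1, c2⟩ := inv_cos_pair x hx m ⟨m1, m2, m3, m4⟩
      have hij : i = j := hnc i j (h1.trans (hconj j m c1))
      subst hij
      exact ⟨m, ⟨c1, c2⟩, rfl⟩
    · rintro ⟨m, ⟨c1, c2⟩, rfl⟩
      refine ⟨(hconj i m c1).symm, ?_⟩
      have e : (PP P m)⁻¹ * PP P x = PP P (m⁻¹ * x) := by rw [PP_mul, PP_inv]
      rw [e]
      exact (hconj i _ c2).symm
  rw [hset, Finset.card_image_of_injective _ (PP_inj P)]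

/-- An integer value at an involution. -/
theorem char_invol_int {χ : G → ℂ} (hχ : IsCharacter G χ) {v : G} (hv : v * v = 1) : ∃ n : ℤ, χ v = n := by
  obtain ⟨n, ρ, rfl⟩ := hχ
  have hfin : IsOfFinOrder v := isOfFinOrder_of_finite v
  obtain ⟨ζ, hζ, hk⟩ := character_eq_sum_roots ρ v hfin
  have hk1 := hk 1
  rw [zpow_one] at hk1
  have h2 : orderOf v ∣ 2 := orderOf_dvd_of_pow_eq_one (by rw [pow_two]; exact hv)
  have hz : ∀ i, ∃ m : ℤ, ζ i = m := by
    intro i
    have h3 : ζ i ^ 2 = 1 := by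
      obtain ⟨c, hc⟩ := h2
      rw [hc, pow_mul, hζ i, one_pow]
    have h4 : (ζ i - 1) * (ζ i + 1) = 0 := by ring_nf; rw [h3]; ring
    rcases mul_eq_zero.mp h4 with h5 | h5
    · exact ⟨1, by push_cast; linear_combination h5⟩
    · exact ⟨-1, by push_cast; linear_combination h5⟩
  choose m hm using hz
  refine ⟨∑ i, m i, ?_⟩
  rw [hk1]
  push_cast
  simp only [zpow_one, hm]

theorem Th_int {u : IrrCharacter G → ℤ} (hU : dot u u = 1) {v : G} (hv : v * v = 1) : ∃ n : ℤ, Th u v = n := by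
  obtain ⟨χ, s, hs, -, h⟩ := Th_cases hU
  obtain ⟨n, hn⟩ := char_invol_int (IsIrrCharacter.isCharacter χ.2) hv
  exact ⟨s * n, by rw [h, hn]; push_cast; ring⟩

/-- A congruence modulo three. -/
theorem root_six {ζ : ℂ} (h : ζ ^ 6 = 1) : ∃ n : ℤ, ζ + ζ ^ 3 + ζ ^ 5 = 3 * n := by
  have h1 : (ζ ^ 2 - 1) * (ζ ^ 4 + ζ ^ 2 + 1) = 0 := by linear_combination h
  rcases mul_eq_zero.mp h1 with h2 | h2
  · have h3 : (ζ - 1) * (ζ + 1) = 0 := by linear_combination h2
    rcases mul_eq_zero.mp h3 with h4 | h4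
    · have h5 : ζ = 1 := by linear_combination h4
      exact ⟨1, by rw [h5]; norm_num⟩
    · have h5 : ζ = -1 := by linear_combination h4
      exact ⟨-1, by rw [h5]; norm_num⟩
  · exact ⟨0, by push_cast; linear_combination ζ * h2⟩

theorem char_six {χ : G → ℂ} (hχ : IsCharacter G χ) {g : G} (hg : g ^ 6 = 1) :
    ∃ n : ℤ, χ g + χ (g ^ 3) + χ (g ^ 5) = 3 * n := by
  obtain ⟨n, ρ, rfl⟩ := hχ
  have hfin : IsOfFinOrder g := isOfFinOrder_of_finite g
  obtain ⟨ζ, hζ, hk⟩ := character_eq_sum_roots ρ g hfin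
  have h2 : orderOf g ∣ 6 := orderOf_dvd_of_pow_eq_one hg
  have hz : ∀ i, ∃ m : ℤ, ζ i + ζ i ^ 3 + ζ i ^ 5 = 3 * m := by
    intro i
    apply root_six
    obtain ⟨c, hc⟩ := h2
    rw [hc, pow_mul, hζ i, one_pow]
  choose m hm using hz
  refine ⟨∑ i, m i, ?_⟩
  have e1 : ρ.character g = ∑ i, ζ i := by
    have := hk 1
    simpa using this
  have e3 : ρ.character (g ^ 3) = ∑ i, ζ i ^ 3 := by
    have := hk 3
    simpa using this
  have e5 : ρ.character (g ^ 5) = ∑ i, ζ i ^ 5 := by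
    have := hk 5
    simpa using this
  rw [e1, e3, e5, ← Finset.sum_add_distrib, ← Finset.sum_add_distrib]
  push_cast
  rw [Finset.mul_sum]
  exact Finset.sum_congr rfl fun i _ => hm i

theorem Th_six {u : IrrCharacter G → ℤ} (hU : dot u u = 1) {g : G} (hg : g ^ 6 = 1) :
    ∃ n : ℤ, Th u g + Th u (g ^ 3) + Th u (g ^ 5) = 3 * n := by
  obtain ⟨χ, s, hs, -, h⟩ := Th_cases hU
  obtain ⟨n, hn⟩ := char_six (IsIrrCharacter.isCharacter χ.2) hg
  refine ⟨s * n, ?_⟩
  rw [h, h, h]
  push_cast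
  linear_combination (s : ℂ) * hn

theorem Th_inv {u : IrrCharacter G → ℤ} (g : G) : Th u g⁻¹ = conj (Th u g) := by
  simp only [Th, map_sum, map_mul, map_intCast]
  refine Finset.sum_congr rfl fun χ _ => ?_
  rw [IsCharacter.map_inv' (IsIrrCharacter.isCharacter χ.2)]

end Cfsg.Agent.Lib.H108
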