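import Cfsg.Agent.Lib.H108.Degree

/-!
# The degree equations.
-/

set_option autoImplicit false
set_option linter.unusedSimpArgs false
set_option linter.unusedSectionVars false
set_option linter.unusedVariables false

open scoped ComplexConjugate

namespace Cfsg.Agent.Lib.H108

open Cfsg Cfsg.Agent.Lib.Char

universe u

variable {G : Type u} [Group G] [Fintype G] {H : Subgroup G} (P : M ≃* H)

/-- The weights of the linear labels. -/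
noncomputable def Ea (C Y : Fin 4 → ℤ) (a : Fin 4) : ℚ := (Y a : ℚ) ^ 2 / (C a : ℚ)

/-- The weights of the other labels. -/
noncomputable def El (C Y : Fin 4 → ℤ) (l : Fin 11) : ℚ :=
  ((∑ a, mult l a * Y a : ℤ) : ℚ) ^ 2 / ((∑ a, mult l a * C a : ℤ) : ℚ)

theorem eq_rat {θ : Fin 15 → IrrCharacter G → ℤ}
    (hTI : ∀ (m m' : M) (g : G), m * m * m * m ≠ 1 → m' * m' * m' * m' ≠ 1 →
      g⁻¹ * PP P m * g = PP P m' → g ∈ H)
    (hnc : ∀ i j, IsConj (PP P (vv i)) (PP P (vv j)) → i = j)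
    (h1 : ∀ l, dot (θ l) (θ l) = 1)
    (h4 : ∀ l, tl P l = ∑ χ, ((θ (lb l) χ - ∑ a, mult l a * θ (la a) χ : ℤ) : ℂ) • (χ : G → ℂ))
    (i : Fin 3) {C Y : Fin 4 → ℤ} (hC : ∀ a, Th (θ (la a)) 1 = C a)
    (hY : ∀ a, Th (θ (la a)) (PP P (vv i)) = Y a) {x : M} (hx : six x = true) :
    (((if coord i x = 0 then 9 else 0 : ℕ) : ℚ)) * (Nat.card G : ℚ) =
      (((Subgroup.centralizer ({PP P (vv i)} : Set G)).index : ℕ) : ℚ) ^ 2 *
        (∑ a, (lamZ a x : ℚ) * Ea C Y a + ∑ l, ((fn (lb l) x).1 : ℚ) * El C Y l) := by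
  have h := class_formula' P h1 h4 (PP P (vv i)) (six_L x hx)
  rw [count_eq P hTI hnc i hx] at h
  have hv2 : PP P (vv i) * PP P (vv i) = 1 := by
    rw [← PP_mul, (vv_invol i).1, PP_one]
  have hv4 : PP P (vv i) * PP P (vv i) * PP P (vv i) * PP P (vv i) = 1 := by
    rw [hv2]; simp [hv2]
  have e1 : ∀ l, Th (θ (lb l)) (PP P (vv i)) = ((∑ a, mult l a * Y a : ℤ) : ℂ) := by
    intro l
    rw [Th_rel P h4 l hv4]
    push_cast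
    simp only [hY]
  have e2 : ∀ l, Th (θ (lb l)) 1 = ((∑ a, mult l a * C a : ℤ) : ℂ) := by
    intro l
    rw [Th_rel P h4 l (by simp)]
    push_cast
    simp only [hC]
  simp only [hY, hC, e1, e2] at h
  apply Rat.cast_injective (α := ℂ)
  simp only [Ea, El]
  generalize (if coord i x = 0 then 9 else 0 : ℕ) = d at h ⊢
  push_cast
  push_cast at h
  exact h

theorem R_gen {x : M} (hs : x.s = 0) (hu : x.u = 0) {vals : Fin 11 → ℤ} (hv : ∀ l, (fn (lb l) x).1 = vals l)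
    (E : Fin 4 → ℚ) (F : Fin 11 → ℚ) :
    ∑ a, (lamZ a x : ℚ) * E a + ∑ l, ((fn (lb l) x).1 : ℚ) * F l =
      E 0 + E 1 + E 2 + E 3 + ∑ l, (vals l : ℚ) * F l := by
  simp only [hv, T_lam _ x hs hu, Fin.sum_univ_four]
  simp

theorem Ea_zero {C Y : Fin 4 → ℤ} (hC0 : C 0 = 1) (hY0 : Y 0 = 1) : Ea C Y 0 = 1 := by
  simp [Ea, hC0, hY0]

section Vals

variable {C Y : Fin 4 → ℤ} (hC0 : C 0 = 1) (hY0 : Y 0 = 1)
include hC0 hY0

theorem El0 : El C Y 0 = (1 + (Y 1 : ℚ)) ^ 2 / (1 + (C 1 : ℚ)) := by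
  simp [El, mult, Fin.sum_univ_four, hC0, hY0]
theorem El1 : El C Y 1 = (1 + (Y 2 : ℚ)) ^ 2 / (1 + (C 2 : ℚ)) := by
  simp [El, mult, Fin.sum_univ_four, hC0, hY0]
theorem El2 : El C Y 2 = (1 + (Y 3 : ℚ)) ^ 2 / (1 + (C 3 : ℚ)) := by
  simp [El, mult, Fin.sum_univ_four, hC0, hY0]
theorem El3 : El C Y 3 = ((Y 2 : ℚ) + Y 3) ^ 2 / ((C 2 : ℚ) + C 3) := by
  simp [El, mult, Fin.sum_univ_four, hC0, hY0]
theorem El4 : El C Y 4 = ((Y 1 : ℚ) + Y 3) ^ 2 / ((C 1 : ℚ) + C 3) := by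
  simp [El, mult, Fin.sum_univ_four, hC0, hY0]
theorem El5 : El C Y 5 = ((Y 1 : ℚ) + Y 2) ^ 2 / ((C 1 : ℚ) + C 2) := by
  simp [El, mult, Fin.sum_univ_four, hC0, hY0]
theorem El6 : El C Y 6 = (1 + (Y 1 : ℚ) + Y 2 + Y 3) ^ 2 / (1 + (C 1 : ℚ) + C 2 + C 3) := by
  simp [El, mult, Fin.sum_univ_four, hC0, hY0]
theorem El7 : El C Y 7 = El C Y 6 := by
  simp [El, mult, Fin.sum_univ_four]
theorem El8 : El C Y 8 = El C Y 6 := by
  simp [El, mult, Fin.sum_univ_four]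
theorem El9 : El C Y 9 = El C Y 6 := by
  simp [El, mult, Fin.sum_univ_four]
theorem El10 : El C Y 10 = El C Y 6 := by
  simp [El, mult, Fin.sum_univ_four]

end Vals

/-- The six equations, in a form independent of the class. -/
theorem six_eqs {C Y : Fin 4 → ℤ} (hC0 : C 0 = 1) (hY0 : Y 0 = 1) :
    let A := 1 + Ea C Y 1 + Ea C Y 2 + Ea C Y 3
    let B₁ := El C Y 0 + El C Y 3
    let B₂ := El C Y 1 + El C Y 4
    let B₃ := El C Y 2 + El C Y 5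
    let W := El C Y 6
    let R := fun x : M => ∑ a, (lamZ a x : ℚ) * Ea C Y a + ∑ l, ((fn (lb l) x).1 : ℚ) * El C Y l
    R ⟨1, 0, 0, 0, 0⟩ = A - B₁ + 2 * B₂ + 2 * B₃ - 4 * W ∧
    R ⟨0, 1, 0, 0, 0⟩ = A + 2 * B₁ - B₂ + 2 * B₃ - 4 * W ∧
    R ⟨0, 0, 1, 0, 0⟩ = A + 2 * B₁ + 2 * B₂ - B₃ - 4 * W ∧
    R ⟨1, 1, 0, 0, 0⟩ = A - B₁ - B₂ + 2 * B₃ - W ∧
    R ⟨1, 0, 1, 0, 0⟩ = A - B₁ + 2 * B₂ - B₃ - W ∧
    R ⟨0, 1, 1, 0, 0⟩ = A + 2 * B₁ - B₂ - B₃ - W := by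
  intro A B₁ B₂ B₃ W R
  have e7 := El7 (C := C) (Y := Y) hC0 hY0
  have e8 := El8 (C := C) (Y := Y) hC0 hY0
  have e9 := El9 (C := C) (Y := Y) hC0 hY0
  have e10 := El10 (C := C) (Y := Y) hC0 hY0
  have e0 := Ea_zero (C := C) (Y := Y) hC0 hY0
  refine ⟨?_, ?_, ?_, ?_, ?_, ?_⟩
  · simp only [R]
    rw [R_gen rfl rfl fn_e1, sum_fin11, e0, e7, e8, e9, e10]
    simp
    simp only [A, B₁, B₂, B₃, W]
    ring
  · simp only [R]
    rw [R_gen rfl rfl fn_e2, sum_fin11, e0, e7, e8, e9, e10]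
    simp
    simp only [A, B₁, B₂, B₃, W]
    ring
  · simp only [R]
    rw [R_gen rfl rfl fn_e3, sum_fin11, e0, e7, e8, e9, e10]
    simp
    simp only [A, B₁, B₂, B₃, W]
    ring
  · simp only [R]
    rw [R_gen rfl rfl fn_e12, sum_fin11, e0, e7, e8, e9, e10]
    simp
    simp only [A, B₁, B₂, B₃, W]
    ring
  · simp only [R]
    rw [R_gen rfl rfl fn_e13, sum_fin11, e0, e7, e8, e9, e10]
    simp
    simp only [A, B₁, B₂, B₃, W]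
    ring
  · simp only [R]
    rw [R_gen rfl rfl fn_e23, sum_fin11, e0, e7, e8, e9, e10]
    simp
    simp only [A, B₁, B₂, B₃, W]
    ring

/-- Nonvanishing. -/
theorem nonvan {c₁ c₂ c₃ : ℤ} (h1 : c₁ % 9 = 1) (h2 : c₂ % 9 = 1) (h3 : c₃ % 9 = 1) :
    (c₁ : ℚ) ≠ 0 ∧ (c₂ : ℚ) ≠ 0 ∧ (c₃ : ℚ) ≠ 0 ∧ 1 + (c₁ : ℚ) ≠ 0 ∧ 1 + (c₂ : ℚ) ≠ 0 ∧ 1 + (c₃ : ℚ) ≠ 0 ∧
      (c₂ : ℚ) + c₃ ≠ 0 ∧ (c₁ : ℚ) + c₃ ≠ 0 ∧ (c₁ : ℚ) + c₂ ≠ 0 ∧ 1 + (c₁ : ℚ) + c₂ + c₃ ≠ 0 := by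
  have a1 : c₁ ≠ 0 := by omega
  have a2 : c₂ ≠ 0 := by omega
  have a3 : c₃ ≠ 0 := by omega
  have a4 : 1 + c₁ ≠ 0 := by omega
  have a5 : 1 + c₂ ≠ 0 := by omega
  have a6 : 1 + c₃ ≠ 0 := by omega
  have a7 : c₂ + c₃ ≠ 0 := by omega
  have a8 : c₁ + c₃ ≠ 0 := by omega
  have a9 : c₁ + c₂ ≠ 0 := by omega
  have a10 : 1 + c₁ + c₂ + c₃ ≠ 0 := by omega
  refine ⟨by exact_mod_cast a1, by exact_mod_cast a2, by exact_mod_cast a3, by exact_mod_cast a4,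
    by exact_mod_cast a5, by exact_mod_cast a6, by exact_mod_cast a7, by exact_mod_cast a8,
    by exact_mod_cast a9, by exact_mod_cast a10⟩

set_option maxHeartbeats 1000000 in
/-- The polynomial equations for all three classes. -/
theorem poly_eqs {θ : Fin 15 → IrrCharacter G → ℤ}
    (hTI : ∀ (m m' : M) (g : G), m * m * m * m ≠ 1 → m' * m' * m' * m' ≠ 1 →
      g⁻¹ * PP P m * g = PP P m' → g ∈ H)
    (hnc : ∀ i j, IsConj (PP P (vv i)) (PP P (vv j)) → i = j)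
    (h1 : ∀ l, dot (θ l) (θ l) = 1) (h2 : θ 0 irr1 = 1)
    (h4 : ∀ l, tl P l = ∑ χ, ((θ (lb l) χ - ∑ a, mult l a * θ (la a) χ : ℤ) : ℂ) • (χ : G → ℂ))
    {C : Fin 4 → ℤ} (hC : ∀ a, Th (θ (la a)) 1 = C a) (hC0 : C 0 = 1)
    (c1 : C 1 % 9 = 1) (c2 : C 2 % 9 = 1) (c3 : C 3 % 9 = 1) (i : Fin 3) :
    (i = 0 → polyP (C 1) (C 2) (C 3) = 0) ∧ (i = 1 → polyP (C 2) (C 1) (C 3) = 0) ∧
      (i = 2 → polyP (C 3) (C 1) (C 2) = 0) := by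
  have hv2 : PP P (vv i) * PP P (vv i) = 1 := by
    rw [← PP_mul, (vv_invol i).1, PP_one]
  have hex : ∀ a, ∃ n : ℤ, Th (θ (la a)) (PP P (vv i)) = n := fun a => Th_int (h1 _) hv2
  choose Y hY using hex
  have hY0 : Y 0 = 1 := by
    have := hY 0
    rw [Th_zero h1 h2] at this
    exact_mod_cast this.symm
  obtain ⟨n1, n2, n3, n4, n5, n6, n7, n8, n9, n10⟩ := nonvan c1 c2 c3
  obtain ⟨r1, r2, r3, r12, r13, r23⟩ := six_eqs (C := C) (Y := Y) hC0 hY0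
  obtain ⟨s1, s2, s3, s12, s13, s23⟩ := six_all
  have q1 := eq_rat P hTI hnc h1 h4 i hC hY s1
  have q2 := eq_rat P hTI hnc h1 h4 i hC hY s2
  have q3 := eq_rat P hTI hnc h1 h4 i hC hY s3
  have q12 := eq_rat P hTI hnc h1 h4 i hC hY s12
  have q13 := eq_rat P hTI hnc h1 h4 i hC hY s13
  have q23 := eq_rat P hTI hnc h1 h4 i hC hY s23
  set K : ℕ := (Subgroup.centralizer ({PP P (vv i)} : Set G)).index with hK
  have hK0 : (K : ℚ) ≠ 0 := by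
    have : K ≠ 0 := Subgroup.index_ne_zero_of_finite
    exact_mod_cast this
  have hG0 : (0 : ℚ) < (Nat.card G : ℚ) := by
    have : 0 < Nat.card G := Nat.card_pos
    exact_mod_cast this
  set κ : ℚ := 9 * (Nat.card G : ℚ) / (K : ℚ) ^ 2 with hκ
  have hκpos : 0 < κ := by positivity
  have hsolve : ∀ (d : ℚ) (Rx : ℚ), d * (Nat.card G : ℚ) = (K : ℚ) ^ 2 * Rx → Rx = d / 9 * κ := by
    intro d Rx h
    rw [hκ]
    field_simp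
    linear_combination -h
  have t1 := hsolve _ _ q1
  have t2 := hsolve _ _ q2
  have t3 := hsolve _ _ q3
  have t12 := hsolve _ _ q12
  have t13 := hsolve _ _ q13
  have t23 := hsolve _ _ q23
  replace t1 := r1.symm.trans t1
  replace t2 := r2.symm.trans t2
  replace t3 := r3.symm.trans t3
  replace t12 := r12.symm.trans t12
  replace t13 := r13.symm.trans t13
  replace t23 := r23.symm.trans t23
  have E1 : Ea C Y 1 = (Y 1 : ℚ) ^ 2 / (C 1 : ℚ) := rfl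
  have E2 : Ea C Y 2 = (Y 2 : ℚ) ^ 2 / (C 2 : ℚ) := rfl
  have E3 : Ea C Y 3 = (Y 3 : ℚ) ^ 2 / (C 3 : ℚ) := rfl
  rw [El0 hC0 hY0, El1 hC0 hY0, El2 hC0 hY0, El3 hC0 hY0, El4 hC0 hY0, El5 hC0 hY0, El6 hC0 hY0, E1, E2, E3] at t1 t2 t3 t12 t13 t23
  refine ⟨?_, ?_, ?_⟩
  · rintro rfl
    simp only [show coord 0 (⟨1, 0, 0, 0, 0⟩ : M) = 1 from rfl, show coord 0 (⟨0, 1, 0, 0, 0⟩ : M) = 0 from rfl,
      show coord 0 (⟨0, 0, 1, 0, 0⟩ : M) = 0 from rfl, show coord 0 (⟨1, 1, 0, 0, 0⟩ : M) = 1 from rfl,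
      show coord 0 (⟨1, 0, 1, 0, 0⟩ : M) = 1 from rfl, show coord 0 (⟨0, 1, 1, 0, 0⟩ : M) = 0 from rfl] at t1 t2 t3 t12 t13 t23
    norm_num at t1 t2 t3 t12 t13 t23
    have := class_poly (ci := (C 1 : ℚ)) (cj := C 2) (ck := C 3) (yi := Y 1) (yj := Y 2) (yk := Y 3) (κ := κ)
      n1 n2 n3 n4 n5 n6 n7 n8 n9 n10 hκpos (by linarith) (by linarith) (by linarith) (by linarith)
    unfold polyP
    exact_mod_cast this
  · rintro rfl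
    simp only [show coord 1 (⟨1, 0, 0, 0, 0⟩ : M) = 0 from rfl, show coord 1 (⟨0, 1, 0, 0, 0⟩ : M) = 1 from rfl,
      show coord 1 (⟨0, 0, 1, 0, 0⟩ : M) = 0 from rfl, show coord 1 (⟨1, 1, 0, 0, 0⟩ : M) = 1 from rfl,
      show coord 1 (⟨1, 0, 1, 0, 0⟩ : M) = 0 from rfl, show coord 1 (⟨0, 1, 1, 0, 0⟩ : M) = 1 from rfl] at t1 t2 t3 t12 t13 t23
    norm_num at t1 t2 t3 t12 t13 t23
    have e1 : (1 + (Y 2 : ℚ) + Y 1 + Y 3) = 1 + Y 1 + Y 2 + Y 3 := by ring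
    have e2 : (1 + (C 2 : ℚ) + C 1 + C 3) = 1 + C 1 + C 2 + C 3 := by ring
    have e3 : ((Y 2 : ℚ) + Y 1) = Y 1 + Y 2 := by ring
    have e4 : ((C 2 : ℚ) + C 1) = C 1 + C 2 := by ring
    have := class_poly (ci := (C 2 : ℚ)) (cj := C 1) (ck := C 3) (yi := Y 2) (yj := Y 1) (yk := Y 3) (κ := κ)
      n2 n1 n3 n5 n4 n6 n8 n7 (by rw [e4]; exact n9) (by rw [e2]; exact n10) hκpos
      (by rw [e1, e2]; linarith) (by rw [e1, e2]; linarith) (by rw [e1, e2]; linarith)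
      (by rw [e1, e2, e3, e4]; linarith)
    unfold polyP
    exact_mod_cast this
  · rintro rfl
    simp only [show coord 2 (⟨1, 0, 0, 0, 0⟩ : M) = 0 from rfl, show coord 2 (⟨0, 1, 0, 0, 0⟩ : M) = 0 from rfl,
      show coord 2 (⟨0, 0, 1, 0, 0⟩ : M) = 1 from rfl, show coord 2 (⟨1, 1, 0, 0, 0⟩ : M) = 0 from rfl,
      show coord 2 (⟨1, 0, 1, 0, 0⟩ : M) = 1 from rfl, show coord 2 (⟨0, 1, 1, 0, 0⟩ : M) = 1 from rfl] at t1 t2 t3 t12 t13 t23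
    norm_num at t1 t2 t3 t12 t13 t23
    have e1 : (1 + (Y 3 : ℚ) + Y 1 + Y 2) = 1 + Y 1 + Y 2 + Y 3 := by ring
    have e2 : (1 + (C 3 : ℚ) + C 1 + C 2) = 1 + C 1 + C 2 + C 3 := by ring
    have e3 : ((Y 3 : ℚ) + Y 1) = Y 1 + Y 3 := by ring
    have e4 : ((C 3 : ℚ) + C 1) = C 1 + C 3 := by ring
    have e5 : ((Y 3 : ℚ) + Y 2) = Y 2 + Y 3 := by ring
    have e6 : ((C 3 : ℚ) + C 2) = C 2 + C 3 := by ring
    have := class_poly (ci := (C 3 : ℚ)) (cj := C 1) (ck := C 2) (yi := Y 3) (yj := Y 1) (yk := Y 2) (κ := κ)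
      n3 n1 n2 n6 n4 n5 n9 (by rw [e6]; exact n7) (by rw [e4]; exact n8) (by rw [e2]; exact n10) hκpos
      (by rw [e1, e2]; linarith) (by rw [e1, e2]; linarith) (by rw [e1, e2, e5, e6]; linarith)
      (by rw [e1, e2, e3, e4]; linarith)
    unfold polyP
    exact_mod_cast this

end Cfsg.Agent.Lib.H108
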