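import Cfsg.Agent.Lib.H108.Count

/-!
# The degrees of the three linear-type characters are one.
-/

set_option autoImplicit false
set_option linter.unusedSimpArgs false
set_option linter.unusedSectionVars false
set_option linter.unusedVariables false

open scoped ComplexConjugate

namespace Cfsg.Agent.Lib.H108

open Cfsg Cfsg.Agent.Lib.Char

universe u

variable {G : Type u} [Group G] [Fintype G] {H : Subgroup G} (P : M ≃* H)

theorem sum_fin11 {R : Type*} [AddCommMonoid R] (f : Fin 11 → R) :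
    ∑ l, f l = f 0 + f 1 + f 2 + f 3 + f 4 + f 5 + f 6 + f 7 + f 8 + f 9 + f 10 := by
  simp only [Fin.sum_univ_succ, Fin.sum_univ_zero, add_zero, add_assoc]
  rfl

theorem Th_zero {θ : Fin 15 → IrrCharacter G → ℤ} (h1 : ∀ l, dot (θ l) (θ l) = 1) (h2 : θ 0 irr1 = 1) (g : G) :
    Th (θ (la 0)) g = 1 := by
  classical
  have e : la 0 = 0 := rfl
  rw [e]
  obtain ⟨χ, s, hs, hv, hT⟩ := Th_cases (h1 0)
  have h3 := hv irr1
  rw [h2] at h3
  by_cases hc : irr1 = χ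
  · rw [if_pos hc] at h3
    subst hc
    rw [hT, ← h3]
    simp [irr1]
  · rw [if_neg hc] at h3
    omega

/-- The congruence modulo nine. -/
theorem mod_nine {θ : Fin 15 → IrrCharacter G → ℤ} (h1 : ∀ l, dot (θ l) (θ l) = 1)
    (h3 : ∀ a l, (a = 1 ∨ a = 2 ∨ a = 3) → dot (θ a) (θ l) = if a = l then 1 else 0)
    (h4 : ∀ l, tl P l = ∑ χ, ((θ (lb l) χ - ∑ a, mult l a * θ (la a) χ : ℤ) : ℂ) • (χ : G → ℂ))
    (a : Fin 4) (ha : a ≠ 0) : ∃ C : ℤ, Th (θ (la a)) 1 = C ∧ C % 9 = 1 := by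
  classical
  obtain ⟨χ, s, hs, -, hT⟩ := Th_cases (h1 (la a))
  have hchar := IsIrrCharacter.isCharacter χ.2
  obtain ⟨n, hn⟩ := IsCharacter.map_one_eq hchar
  -- the subgroup
  let Q : Subgroup M :=
    { carrier := {m | m.c = 0 ∧ m.s = 0 ∧ m.u = 0}
      mul_mem' := fun {x y} hx hy => Q_mul x y hx.1 hx.2.1 hx.2.2 hy.1 hy.2.1 hy.2.2
      one_mem' := ⟨rfl, rfl, rfl⟩
      inv_mem' := fun {x} hx => Q_inv x hx.1 hx.2.1 hx.2.2 }
  have hmemQ : ∀ m, m ∈ Q ↔ (m.c = 0 ∧ m.s = 0 ∧ m.u = 0) := fun m => Iff.rfl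
  let F : Finset M := Finset.univ.filter (fun m : M => m.c = 0 ∧ m.s = 0 ∧ m.u = 0)
  haveI : Fintype Q := Fintype.ofFinite _
  have hcardQ : Nat.card Q = 9 := by
    rw [← card_Q, Nat.card_eq_fintype_card]
    exact Fintype.card_of_subtype _ (fun x => by simp [hmemQ])
  let ψ : Q → ℂ := fun q => (χ : G → ℂ) (PP P q)
  have hψ : IsCharacter Q ψ := IsCharacter.restrict Q (IsCharacter.comp (PPhom P) hchar)
  obtain ⟨k, hk⟩ := classInner_isCharacter_nat hψ (IsCharacter.one (G := Q))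
  rw [classInner_def, hcardQ] at hk
  simp only [map_one, mul_one] at hk
  have hsum : ∑ q : Q, ψ q = ∑ m ∈ F, (χ : G → ℂ) (PP P m) := by
    symm
    exact Finset.sum_subtype F (fun x => by simp [F, hmemQ]) _
  rw [hsum] at hk
  have h1F : (1 : M) ∈ F := by simp [F]; exact ⟨rfl, rfl, rfl⟩
  have hval : ∀ m ∈ F.erase 1, (χ : G → ℂ) (PP P m) = s := by
    intro m hm
    obtain ⟨hm1, hm2⟩ := Finset.mem_erase.mp hm
    obtain ⟨c0, s0, u0⟩ := (Finset.mem_filter.mp hm2).2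
    obtain ⟨x, hx, xs, xu, hcl⟩ := Q_rep m c0 s0 u0 hm1
    obtain ⟨g, hg⟩ := clP_conj x hx m hcl
    have h5 : IsConj (PP P m) (PP P x) := by
      rw [isConj_iff]
      refine ⟨(PP P g)⁻¹, ?_⟩
      rw [← hg, PP_mul, PP_mul, PP_inv]
      group
    have h6 := value_la P h3 h4 hx a ha
    rw [← Th_class _ _ h5, hT, T_lam a x xs xu] at h6
    rcases hs with rfl | rfl
    · simpa using h6
    · push_cast at h6 ⊢
      linear_combination -h6
  rw [← Finset.add_sum_erase F _ h1F, Finset.sum_congr rfl hval, PP_one, Finset.sum_const, hn] at hk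
  have hcard : (F.erase 1).card = 8 := by
    rw [Finset.card_erase_of_mem h1F, card_Q]
  rw [hcard] at hk
  have hk' : ((n : ℂ) + 8 * (s : ℂ)) = 9 * k := by
    push_cast at hk
    simp only [nsmul_eq_mul] at hk
    field_simp at hk
    push_cast at hk
    linear_combination hk
  have hk'' : (n : ℤ) + 8 * s = 9 * k := by exact_mod_cast hk'
  refine ⟨s * n, ?_, ?_⟩
  · rw [hT, hn]; push_cast; ring
  · rcases hs with rfl | rfl
    · omega
    · omega

/-- The congruence modulo three. -/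
theorem mod_three {θ : Fin 15 → IrrCharacter G → ℤ} (h1 : ∀ l, dot (θ l) (θ l) = 1)
    (h3 : ∀ a l, (a = 1 ∨ a = 2 ∨ a = 3) → dot (θ a) (θ l) = if a = l then 1 else 0)
    (h4 : ∀ l, tl P l = ∑ χ, ((θ (lb l) χ - ∑ a, mult l a * θ (la a) χ : ℤ) : ℂ) • (χ : G → ℂ))
    (a : Fin 4) (ha : a ≠ 0) (i : Fin 3) :
    ∃ n : ℤ, Th (θ (la a)) (PP P (vv i)) + 2 * (lamZ a (vv i) : ℂ) = 3 * n := by
  set g := PP P (ev i) with hg
  have e3 : g ^ 3 = PP P (vv i) := by
    rw [hg, ← ev_cube i, PP_mul, PP_mul, pow_succ, pow_two]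
  have e6 : g ^ 6 = 1 := by
    have : g ^ 6 = g ^ 3 * g ^ 3 := by group
    rw [this, e3, ← PP_mul, (vv_invol i).1, PP_one]
  have e5 : g ^ 5 = g⁻¹ := by
    rw [eq_inv_iff_mul_eq_one, ← pow_succ]
    exact e6
  obtain ⟨n, hn⟩ := Th_six (h1 (la a)) e6
  have hv := value_la P h3 h4 (ev_L i) a ha
  rw [e5, e3, Th_inv, hv, lam_ev] at hn
  refine ⟨n, ?_⟩
  simp only [map_intCast] at hn
  linear_combination hn

/-- The three involutions are not conjugate. -/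
theorem nonconj {θ : Fin 15 → IrrCharacter G → ℤ} (h1 : ∀ l, dot (θ l) (θ l) = 1)
    (h3 : ∀ a l, (a = 1 ∨ a = 2 ∨ a = 3) → dot (θ a) (θ l) = if a = l then 1 else 0)
    (h4 : ∀ l, tl P l = ∑ χ, ((θ (lb l) χ - ∑ a, mult l a * θ (la a) χ : ℤ) : ℂ) • (χ : G → ℂ))
    (i j : Fin 3) (hc : IsConj (PP P (vv i)) (PP P (vv j))) : i = j := by
  by_contra hij
  have ha : (i.succ : Fin 4) ≠ 0 := Fin.succ_ne_zero i
  obtain ⟨l1, l2⟩ := lam_vv i j hij
  obtain ⟨n, hn⟩ := mod_three P h1 h3 h4 i.succ ha i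
  obtain ⟨n', hn'⟩ := mod_three P h1 h3 h4 i.succ ha j
  rw [l1] at hn
  rw [l2, ← Th_class _ _ hc] at hn'
  have h5 : ((4 : ℤ) : ℂ) = ((3 * (n - n') : ℤ) : ℂ) := by
    push_cast at hn hn' ⊢
    linear_combination hn - hn'
  have h6 : (4 : ℤ) = 3 * (n - n') := by exact_mod_cast h5
  omega

end Cfsg.Agent.Lib.H108
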