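import Cfsg.Agent.Lib.GS1.EqOrdPair
import Cfsg.Agent.Lib.FrobThm.FixedPointFree

/-!
# The group theoretic end of the argument.
-/

set_option autoImplicit false
set_option linter.unusedSimpArgs false
set_option linter.unusedSectionVars false
set_option linter.unusedVariables false

namespace Cfsg.Agent.Lib.H108

open Subgroup

universe u

variable {G : Type u} [Group G] [Finite G]

/-- A group of order `27` and exponent three is not cyclic. -/
theorem not_cyclic_27 {T : Subgroup G} (hcard : Nat.card T = 27) (hcube : ∀ x ∈ T, x ^ 3 = 1) :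
    ¬ IsCyclic T := by
  intro hc
  obtain ⟨g, hg⟩ := hc.exists_generator
  have h1 : orderOf g = 27 := by
    rw [← hcard, ← Nat.card_zpowers, (Subgroup.eq_top_iff' _).mpr hg]
    simp
  have h2 : g ^ 3 = 1 := by
    apply Subtype.ext
    simpa using hcube g g.2
  have h3 := orderOf_dvd_of_pow_eq_one h2
  rw [h1] at h3
  omega

theorem norm_val {T N : Subgroup G} (hT : T ≤ normalizer (N : Set G)) (t : T) (x : N) :
    ((normalizerMonoidHom N (Subgroup.inclusion hT t) x : N) : G) = (t : G) * (x : G) * (t : G)⁻¹ := rfl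

/-- The conjugation action on the centre of a normalized subgroup. -/
noncomputable def conjCenter {T N : Subgroup G} (hT : T ≤ normalizer (N : Set G)) :
    T →* MulAut (center N) :=
  MonoidHom.mk' (fun t => centerCongr (normalizerMonoidHom N (Subgroup.inclusion hT t))) (by
    intro a b
    apply MulEquiv.ext
    intro v
    apply Subtype.ext
    apply Subtype.ext
    change (((a * b : T) : G)) * ((v : N) : G) * ((a * b : T) : G)⁻¹ =
      (a : G) * ((b : G) * ((v : N) : G) * (b : G)⁻¹) * (a : G)⁻¹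
    simp only [Subgroup.coe_mul]
    group)

theorem conjCenter_coe {T N : Subgroup G} (hT : T ≤ normalizer (N : Set G)) (t : T) (v : center N) :
    (((conjCenter hT t v : center N) : N) : G) = (t : G) * ((v : N) : G) * (t : G)⁻¹ := rfl

theorem conj3 (e x : G) : e * (e * (e * x * e⁻¹) * e⁻¹) * e⁻¹ = e ^ 3 * x * (e ^ 3)⁻¹ := by
  simp only [pow_succ, pow_zero, one_mul, mul_inv_rev, mul_assoc]

/-- A noncyclic group of exponent three does not act fixed-point-freely on a nontrivial group. -/
theorem bot_of_fpf {T N : Subgroup G} (hcard : Nat.card T = 27) (hcube : ∀ x ∈ T, x ^ 3 = 1)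
    (hT : T ≤ normalizer (N : Set G))
    (hfix : ∀ t ∈ T, t ≠ 1 → ∀ x ∈ N, t * x * t⁻¹ = x → x = 1) : N = ⊥ := by
  by_contra hN
  haveI : Nontrivial N := (Subgroup.nontrivial_iff_ne_bot N).mpr hN
  haveI : Fact (Nat.Prime 3) := ⟨Nat.prime_three⟩
  -- a nontrivial element of `T`
  have hex : ∃ e : T, e ≠ 1 := by
    by_contra hc
    push Not at hc
    have : Subsingleton T := ⟨fun a b => by rw [hc a, hc b]⟩
    have := Nat.card_of_subsingleton (1 : T)
    omega
  obtain ⟨e, he⟩ := hex
  have he' : (e : G) ≠ 1 := fun h => he (Subtype.ext h)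
  let α : N ≃* N := normalizerMonoidHom N (Subgroup.inclusion hT e)
  have hα : ∀ x : N, ((α x : N) : G) = (e : G) * (x : G) * (e : G)⁻¹ := fun x => norm_val hT e x
  have hnil : Group.IsNilpotent N := by
    refine Cfsg.Agent.Lib.FrobThm.fpf_nilpotent Nat.prime_three α ?_ ?_
    · intro x hx
      have h1 : (e : G) * (x : G) * (e : G)⁻¹ = x := by
        rw [← hα, hx]
      exact Subtype.ext (hfix e e.2 he' x x.2 h1)
    · intro x
      apply Subtype.ext
      have h3 := hcube e e.2
      simp only [Function.iterate_succ, Function.iterate_zero, Function.comp_apply, id, hα]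
      rw [conj3, h3]; simp
  haveI := hnil
  have hcen : center N ≠ ⊥ := Group.IsNilpotent.center_ne_bot N
  haveI : Nontrivial (center N) := (Subgroup.nontrivial_iff_ne_bot _).mpr hcen
  have hTp : IsPGroup 3 T := IsPGroup.of_card (n := 3) (by rw [hcard]; norm_num)
  letI cg : CommGroup (center N) := { (inferInstance : Group (center N)) with
    mul_comm := fun a b => Subtype.ext ((Subgroup.mem_center_iff.1 a.2 b).symm) }
  rcases Cfsg.Agent.Lib.GS1.cyclic_or_quat_of_fpf_action (Q := T) (V := center N) (q := 3) hTp (conjCenter hT) (by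
      intro h hh v hv
      have h1 : (h : G) * ((v : N) : G) * (h : G)⁻¹ = ((v : N) : G) := by
        rw [← conjCenter_coe hT h v]
        exact congrArg (fun w : center N => ((w : N) : G)) hv
      have h2 := hfix h h.2 (fun h0 => hh (Subtype.ext h0)) _ (v : N).2 h1
      exact Subtype.ext (Subtype.ext (by simpa using h2))) with hc | ⟨h2, _⟩
  · exact not_cyclic_27 hcard hcube hc
  · omega

/-- The end of the proof. -/
theorem finish_group {T K H : Subgroup G} (hK : K.Normal) (hTK : T ≤ K)
    (hKH : ∀ x, x ∈ K → x ∈ H → x ∈ T) (hN : normalizer (T : Set G) = H) (hcard : Nat.card T = 27)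
    (hcomm : ∀ x ∈ T, ∀ y ∈ T, x * y = y * x) (hcube : ∀ x ∈ T, x ^ 3 = 1)
    (hC : ∀ t ∈ T, t ≠ 1 → centralizer ({t} : Set G) ≤ H) : H = ⊤ := by
  classical
  haveI : Fact (Nat.Prime 3) := ⟨Nat.prime_three⟩
  set T' : Subgroup K := T.subgroupOf K with hT'
  have hcard' : Nat.card T' = 3 ^ 3 := by
    have e : T' ≃* T := Subgroup.subgroupOfEquivOfLe hTK
    rw [Nat.card_congr e.toEquiv, hcard]; norm_num
  have hT'p : IsPGroup 3 T' := IsPGroup.of_card hcard'
  have hnorm : normalizer (T' : Set K) ≤ T' := by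
    intro y hy
    rw [mem_normalizer_iff] at hy
    have hy1 : (y : G) ∈ normalizer (T : Set G) := by
      rw [mem_normalizer_iff]
      intro g
      constructor
      · intro hg
        have h1 := (hy ⟨g, hTK hg⟩).1 (by simpa [hT', mem_subgroupOf] using hg)
        simpa [hT', mem_subgroupOf] using h1
      · intro hg
        have hgK : g ∈ K := by
          have h0 := hTK hg
          have h1 : g = (y : G)⁻¹ * ((y : G) * g * (y : G)⁻¹) * y := by group
          rw [h1]
          exact K.mul_mem (K.mul_mem (K.inv_mem y.2) h0) y.2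
        have h1 := (hy ⟨g, hgK⟩).2 (by simpa [hT', mem_subgroupOf] using hg)
        simpa [hT', mem_subgroupOf] using h1
    rw [hN] at hy1
    rw [hT', mem_subgroupOf]
    exact hKH _ y.2 hy1
  have hnorm' : normalizer (T' : Set K) = T' := le_antisymm hnorm le_normalizer
  obtain ⟨P, hP⟩ := hT'p.exists_le_sylow
  have hPeq : (P : Subgroup K) = T' := by
    have hmod := Sylow.card_normalizer_modEq_card (p := 3) (n := 3) hcard'
    rw [hnorm', hcard'] at hmod
    obtain ⟨k, hk⟩ := IsPGroup.iff_card.mp P.2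
    have hk3 : 3 ≤ k := by
      have h1 : Nat.card T' ∣ Nat.card (P : Subgroup K) := Subgroup.card_dvd_of_le hP
      rw [hcard', hk] at h1
      exact (Nat.pow_dvd_pow_iff_le_right (by norm_num)).mp h1
    have hk4 : k = 3 := by
      by_contra hne
      have hk5 : 4 ≤ k := by omega
      have h1 : 3 ^ 4 ∣ Nat.card (P : Subgroup K) := by
        rw [hk]; exact pow_dvd_pow 3 hk5
      have h2 : 3 ^ 4 ∣ Nat.card K := h1.trans (Subgroup.card_subgroup_dvd_card _)
      have h3 : 3 ^ (3 + 1) ∣ 3 ^ 3 := (Nat.ModEq.dvd_iff hmod (dvd_refl _)).mpr h2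
      norm_num at h3
    symm
    apply Subgroup.eq_of_le_of_card_ge hP
    rw [hk, hk4, hcard']
  have hPn : normalizer ((P : Subgroup K) : Set K) ≤ centralizer ((P : Subgroup K) : Set K) := by
    rw [hPeq]
    intro y hy
    have hy' := hnorm hy
    rw [mem_centralizer_iff]
    intro z hz
    apply Subtype.ext
    have h1 : (y : G) ∈ T := by simpa [hT', mem_subgroupOf] using hy'
    have h2 : (z : G) ∈ T := by simpa [hT', mem_subgroupOf] using hz
    exact hcomm _ h2 _ h1
  have hc := MonoidHom.ker_transferSylow_isComplement' P hPn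
  set Nk := (MonoidHom.transferSylow P hPn).ker with hNk
  have hNkn : Nk.Normal := MonoidHom.normal_ker _
  set N₀ : Subgroup G := Nk.map K.subtype with hN₀
  have hmemN : ∀ x, x ∈ N₀ ↔ ∃ hx : x ∈ K, (⟨x, hx⟩ : K) ∈ Nk := by
    intro x
    rw [hN₀, mem_map]
    constructor
    · rintro ⟨k, hk, rfl⟩
      exact ⟨k.2, hk⟩
    · rintro ⟨hx, h⟩
      exact ⟨⟨x, hx⟩, h, rfl⟩
  have hTnorm : T ≤ normalizer (N₀ : Set G) := by
    intro t ht
    have key : ∀ t ∈ T, ∀ h ∈ N₀, t * h * t⁻¹ ∈ N₀ := by
      intro t ht h hh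
      obtain ⟨hx, h2⟩ := (hmemN h).1 hh
      have h3 := hNkn.conj_mem _ h2 ⟨t, hTK ht⟩
      exact (hmemN _).2 ⟨K.mul_mem (K.mul_mem (hTK ht) hx) (K.inv_mem (hTK ht)), h3⟩
    rw [mem_normalizer_iff]
    intro h
    refine ⟨key t ht h, fun h1 => ?_⟩
    have h2 := key t⁻¹ (T.inv_mem ht) _ h1
    have e : t⁻¹ * (t * h * t⁻¹) * t⁻¹⁻¹ = h := by group
    rwa [e] at h2
  have hbot : N₀ = ⊥ := by
    refine bot_of_fpf hcard hcube hTnorm ?_
    intro t ht ht1 x hx hfx
    have h1 : x ∈ centralizer ({t} : Set G) := by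
      rw [mem_centralizer_singleton_iff]
      have : t * x = x * t := by
        have h2 : t * x * t⁻¹ * t = x * t := by rw [hfx]
        simpa using h2
      exact this.symm
    have h2 : x ∈ H := hC t ht ht1 h1
    obtain ⟨hxK, h3⟩ := (hmemN x).1 hx
    have h4 : x ∈ T := hKH x hxK h2
    have h5 : (⟨x, hxK⟩ : K) ∈ (P : Subgroup K) := by
      rw [hPeq, hT', mem_subgroupOf]
      exact h4
    have h6 := Subgroup.disjoint_def.mp hc.disjoint h3 h5
    simpa using congrArg Subtype.val h6
  have hNbot : Nk = ⊥ := by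
    rw [hN₀] at hbot
    exact (Subgroup.map_eq_bot_iff_of_injective _ K.subtype_injective).mp hbot
  have htop : (P : Subgroup K) = ⊤ := by
    have := hc.sup_eq_top
    rwa [hNbot, bot_sup_eq] at this
  have hKT : K ≤ T := by
    intro x hx
    have h1 : (⟨x, hx⟩ : K) ∈ (P : Subgroup K) := by rw [htop]; trivial
    rw [hPeq, hT', mem_subgroupOf] at h1
    exact h1
  have hTK' : T = K := le_antisymm hTK hKT
  have hTn : T.Normal := hTK' ▸ hK
  rw [← hN]
  exact normalizer_eq_top_iff.mpr hTn

end Cfsg.Agent.Lib.H108
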