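import Cfsg.Agent.Lib.H108.Chars

/-!
# Induction from the model to the big group: the isometry and the lattice output.
-/

set_option autoImplicit false
set_option linter.unusedSimpArgs false
set_option linter.unusedSectionVars false
set_option linter.unusedVariables false

open scoped ComplexConjugate

namespace Cfsg.Agent.Lib.H108

open Cfsg Cfsg.Agent.Lib.Char

universe u

variable {G : Type u} [Group G] [Fintype G] {H : Subgroup G} (P : M ≃* H)

/-- The embedding of the model. -/
def PP (m : M) : G := ((P m : H) : G)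

theorem PP_mul (m m' : M) : PP P (m * m') = PP P m * PP P m' := by
  simp [PP]

theorem PP_one : PP P 1 = 1 := by
  simp [PP]

theorem PP_inv (m : M) : PP P m⁻¹ = (PP P m)⁻¹ := by
  simp [PP]

theorem PP_mem (m : M) : PP P m ∈ H := (P m).2

theorem PP_inj : Function.Injective (PP P) := fun a b h =>
  P.injective (Subtype.ext h)

theorem exists_PP {x : G} (hx : x ∈ H) : ∃ m, PP P m = x :=
  ⟨P.symm ⟨x, hx⟩, by simp [PP]⟩

/-- The embedding as a homomorphism. -/
def PPhom : M →* G := H.subtype.comp P.toMonoidHom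

theorem PPhom_apply (m : M) : PPhom P m = PP P m := rfl

theorem PP_symm {x : G} (hx : x ∈ H) : PP P (P.symm ⟨x, hx⟩) = x := by
  simp [PP]

theorem PP_four {m : M} : PP P m * PP P m * PP P m * PP P m = 1 ↔ m * m * m * m = 1 := by
  rw [← PP_mul, ← PP_mul, ← PP_mul, ← PP_one P]
  exact (PP_inj P).eq_iff

include P in
theorem card_H : Nat.card H = 108 := by
  rw [← Nat.card_congr P.toEquiv, Nat.card_eq_fintype_card, card_M]

/-- Induction. -/
noncomputable def tau (α : M → ℂ) : G → ℂ := indFun H (fun h => α (P.symm h))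

theorem tau_eq_zero {α : M → ℂ} (hα : ∀ m, m * m * m * m = 1 → α m = 0) {g : G}
    (hg : g * g * g * g = 1) : tau P α g = 0 := by
  rw [tau, indFun_apply]
  have h : ∀ x, extendByZero H (fun h => α (P.symm h)) (x⁻¹ * g * x) = 0 := by
    intro x
    by_cases hx : x⁻¹ * g * x ∈ H
    · rw [extendByZero_of_mem _ _ hx]
      apply hα
      rw [← PP_four P, PP_symm P hx]
      have e : x⁻¹ * g * x * (x⁻¹ * g * x) * (x⁻¹ * g * x) * (x⁻¹ * g * x) = x⁻¹ * (g * g * g * g) * x := by
        group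
      rw [e, hg]; group
    · exact extendByZero_of_not_mem _ _ hx
  simp [h]

theorem tau_PP {α : M → ℂ} (hα : ∀ m, m * m * m * m = 1 → α m = 0)
    (hcl : ∀ g m, α (g * m * g⁻¹) = α m)
    (hTI : ∀ (m m' : M) (g : G), m * m * m * m ≠ 1 → m' * m' * m' * m' ≠ 1 →
      g⁻¹ * PP P m * g = PP P m' → g ∈ H) (m : M) : tau P α (PP P m) = α m := by
  classical
  by_cases hm : m * m * m * m = 1
  · rw [hα m hm]
    exact tau_eq_zero P hα ((PP_four P).2 hm)
  rw [tau, indFun_apply]
  have hterm : ∀ x : G, extendByZero H (fun h => α (P.symm h)) (x⁻¹ * PP P m * x) =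
      if x ∈ H then α m else 0 := by
    intro x
    by_cases hx : x ∈ H
    · rw [if_pos hx]
      obtain ⟨n, rfl⟩ := exists_PP P hx
      have hmem : (PP P n)⁻¹ * PP P m * PP P n ∈ H :=
        H.mul_mem (H.mul_mem (H.inv_mem (PP_mem P n)) (PP_mem P m)) (PP_mem P n)
      rw [extendByZero_of_mem _ _ hmem]
      have e : P.symm ⟨(PP P n)⁻¹ * PP P m * PP P n, hmem⟩ = n⁻¹ * m * n := by
        apply PP_inj P
        rw [PP_symm, PP_mul, PP_mul, PP_inv]
      rw [e]
      have := hcl n⁻¹ m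
      rwa [inv_inv] at this
    · rw [if_neg hx]
      by_cases hy : x⁻¹ * PP P m * x ∈ H
      · rw [extendByZero_of_mem _ _ hy]
        apply hα
        by_contra hne
        exact hx (hTI m _ x hm hne (PP_symm P hy).symm)
      · exact extendByZero_of_not_mem _ _ hy
  simp only [hterm]
  rw [Finset.sum_ite, Finset.sum_const_zero, add_zero, Finset.sum_const, nsmul_eq_mul]
  have hc : ((Finset.univ.filter (fun x : G => x ∈ H)).card : ℂ) = (Nat.card H : ℂ) := by
    congr 1
    rw [Nat.card_eq_fintype_card]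
    exact (Fintype.card_of_subtype _ (fun x => by simp)).symm
  rw [hc]
  have := card_subgroup_ne_zero H
  field_simp

theorem tau_inner (α : M → ℂ) {χ : G → ℂ} (hχ : IsClassFunction G χ) :
    classInner (tau P α) χ = (108 : ℂ)⁻¹ * ∑ m, α m * conj (χ (PP P m)) := by
  classical
  haveI : Fintype H := Fintype.ofFinite _
  rw [tau, frobenius_reciprocity H _ χ hχ, classInner_def, card_H P]
  push_cast
  congr 1
  rw [← Equiv.sum_comp P.toEquiv]
  refine Finset.sum_congr rfl fun m _ => ?_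
  simp [PP]

/-- The images of the fundamental combinations. -/
noncomputable def tl (l : Fin 11) : G → ℂ := tau P (fun m => iota (al l m))

theorem tl_gen (l : Fin 11) : IsGeneralizedCharacter G (tl P l) := by
  refine indFun_isGeneralized H ?_
  obtain ⟨χ, ψ, hχ, hψ, e⟩ := al_gen l
  refine ⟨fun h => χ (P.symm h), fun h => ψ (P.symm h), IsCharacter.comp P.symm.toMonoidHom hχ, IsCharacter.comp P.symm.toMonoidHom hψ, ?_⟩
  funext h
  have := congrFun e (P.symm h)
  simpa using this

theorem tl_zero (l : Fin 11) {g : G} (hg : g * g * g * g = 1) : tl P l g = 0 :=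
  tau_eq_zero P (fun m hm => al_zero l m hm) hg

theorem tl_PP (hTI : ∀ (m m' : M) (g : G), m * m * m * m ≠ 1 → m' * m' * m' * m' ≠ 1 →
      g⁻¹ * PP P m * g = PP P m' → g ∈ H) (l : Fin 11) (m : M) : tl P l (PP P m) = iota (al l m) :=
  tau_PP P (fun m hm => al_zero l m hm) (fun g m => al_class l g m) hTI m

theorem tl_inner (hTI : ∀ (m m' : M) (g : G), m * m * m * m ≠ 1 → m' * m' * m' * m' ≠ 1 →
      g⁻¹ * PP P m * g = PP P m' → g ∈ H) (l l' : Fin 11) :
    classInner (tl P l) (tl P l') = (gram l l' : ℂ) := by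
  rw [tl, tau_inner P _ (IsGeneralizedCharacter.isClassFunction (tl_gen P l'))]
  simp only [tl_PP P hTI, sum_al_gram]
  field_simp

theorem coeff_eq (c : IrrCharacter G → ℤ) (χ₀ : IrrCharacter G) :
    classInner (∑ χ, (c χ : ℂ) • (χ : G → ℂ)) (χ₀ : G → ℂ) = c χ₀ := by
  classical
  rw [classInner_sum_left, Finset.sum_eq_single χ₀]
  · rw [classInner_smul_left, classInner_irr_self χ₀.2, mul_one]
  · intro ψ _ hne
    rw [classInner_smul_left, classInner_irr_of_ne ψ.2 χ₀.2 (fun h => hne (Subtype.ext h)), mul_zero]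
  · intro h
    exact absurd (Finset.mem_univ _) h

theorem coeff_dot (c d : IrrCharacter G → ℤ) :
    classInner (∑ χ, (c χ : ℂ) • (χ : G → ℂ)) (∑ χ, (d χ : ℂ) • (χ : G → ℂ)) = (dot c d : ℂ) := by
  classical
  rw [classInner_sum_right]
  simp only [dot]
  push_cast
  refine Finset.sum_congr rfl fun χ _ => ?_
  rw [classInner_smul_right, coeff_eq]
  simp [mul_comm]

/-- The principal character. -/
noncomputable def irr1 : IrrCharacter G := ⟨fun _ => 1, isIrrCharacter_one⟩

theorem exists_deg : ∃ d : IrrCharacter G → ℤ, (∀ χ, 0 < d χ) ∧ (∀ χ, (d χ : ℂ) = (χ : G → ℂ) 1) ∧ d irr1 = 1 := by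
  have h : ∀ χ : IrrCharacter G, ∃ n : ℤ, 0 < n ∧ (n : ℂ) = (χ : G → ℂ) 1 ∧ (χ = irr1 → n = 1) := by
    intro χ
    obtain ⟨n, hn⟩ := IsCharacter.map_one_eq (IsIrrCharacter.isCharacter χ.2)
    have hne := map_one_ne_zero_of_irr χ.2
    refine ⟨n, ?_, by rw [hn]; simp, ?_⟩
    · have : n ≠ 0 := by
        rintro rfl
        apply hne
        rw [hn]; simp
      exact_mod_cast Nat.pos_of_ne_zero this
    · rintro rfl
      have h1 : ((n : ℕ) : ℂ) = 1 := by rw [← hn]; rfl
      have h2 : n = 1 := by exact_mod_cast h1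
      simp [h2]
  choose d hd1 hd2 hd3 using h
  exact ⟨d, hd1, hd2, hd3 _ rfl⟩

/-- The lattice output. -/
theorem exists_theta (hTI : ∀ (m m' : M) (g : G), m * m * m * m ≠ 1 → m' * m' * m' * m' ≠ 1 →
      g⁻¹ * PP P m * g = PP P m' → g ∈ H) :
    ∃ θ : Fin 15 → IrrCharacter G → ℤ, (∀ l, dot (θ l) (θ l) = 1) ∧ θ 0 irr1 = 1 ∧
      (∀ a l, (a = 1 ∨ a = 2 ∨ a = 3) → dot (θ a) (θ l) = if a = l then 1 else 0) ∧
      ∀ l, tl P l = ∑ χ, ((θ (lb l) χ - ∑ a, mult l a * θ (la a) χ : ℤ) : ℂ) • (χ : G → ℂ) := by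
  classical
  choose V hV using fun l => generalized_eq_sum (tl_gen P l)
  obtain ⟨d, hd, hdc, hd1⟩ := exists_deg (G := G)
  have hG : ∀ l l', dot (V l) (V l') = gram l l' := by
    intro l l'
    have h := tl_inner P hTI l l'
    rw [hV l, hV l', coeff_dot] at h
    exact_mod_cast h
  have he : ∀ l, V l irr1 = - mult l 0 := by
    intro l
    have h1 := coeff_eq (V l) irr1
    rw [← hV l, tl, tau_inner P _ (IsCharacter.isClassFunction (IsIrrCharacter.isCharacter irr1.2))] at h1
    have h2 : ∀ m, (irr1 : IrrCharacter G).1 (PP P m) = 1 := fun m => rfl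
    simp only [h2, map_one, mul_one, sum_al_one] at h1
    have h3 : ((V l irr1 : ℤ) : ℂ) = ((- mult l 0 : ℤ) : ℂ) := by
      rw [← h1]
      push_cast
      field_simp
    exact_mod_cast h3
  have hVd : ∀ l, dot (V l) d = 0 := by
    intro l
    have h1 : tl P l 1 = 0 := tl_zero P l (by simp)
    rw [hV l] at h1
    simp only [Finset.sum_apply, Pi.smul_apply, smul_eq_mul, ← hdc] at h1
    have : ((dot (V l) d : ℤ) : ℂ) = 0 := by
      simp only [dot]
      push_cast
      exact h1
    exact_mod_cast this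
  obtain ⟨θ, h1, h2, h3, h4⟩ := lattice (V := V) (e₀ := irr1) (d := d) hd hd1 hG he hVd
  refine ⟨θ, h1, ?_, h3, ?_⟩
  · rw [h2]
    exact ee_self _
  · intro l
    rw [hV l]
    refine Finset.sum_congr rfl fun χ _ => ?_
    rw [h4 l χ]

end Cfsg.Agent.Lib.H108
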