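import Cfsg.Agent.Lib.H108.DegEq
import Cfsg.Agent.Lib.H108.Finish

/-!
# The main theorem on the group of order 108.
-/

set_option autoImplicit false
set_option linter.unusedSimpArgs false
set_option linter.unusedSectionVars false
set_option linter.unusedVariables false

open scoped ComplexConjugate

namespace Cfsg.Agent.Lib.H108

open Cfsg Cfsg.Agent.Lib.Char

universe u

variable {G : Type u} [Group G] [Fintype G] {H : Subgroup G} (P : M ≃* H)

/-- The degrees are one. -/
theorem degrees_one {θ : Fin 15 → IrrCharacter G → ℤ}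
    (hTI : ∀ (m m' : M) (g : G), m * m * m * m ≠ 1 → m' * m' * m' * m' ≠ 1 →
      g⁻¹ * PP P m * g = PP P m' → g ∈ H)
    (h1 : ∀ l, dot (θ l) (θ l) = 1) (h2 : θ 0 irr1 = 1)
    (h3 : ∀ a l, (a = 1 ∨ a = 2 ∨ a = 3) → dot (θ a) (θ l) = if a = l then 1 else 0)
    (h4 : ∀ l, tl P l = ∑ χ, ((θ (lb l) χ - ∑ a, mult l a * θ (la a) χ : ℤ) : ℂ) • (χ : G → ℂ))
    (a : Fin 4) : Th (θ (la a)) 1 = 1 := by
  obtain ⟨c1, hc1, m1⟩ := mod_nine P h1 h3 h4 1 (by decide)
  obtain ⟨c2, hc2, m2⟩ := mod_nine P h1 h3 h4 2 (by decide)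
  obtain ⟨c3, hc3, m3⟩ := mod_nine P h1 h3 h4 3 (by decide)
  have hnc := nonconj P h1 h3 h4
  let C : Fin 4 → ℤ := ![1, c1, c2, c3]
  have hC : ∀ a, Th (θ (la a)) 1 = C a := by
    intro a
    fin_cases a
    · simpa [C] using Th_zero h1 h2 1
    · exact hc1
    · exact hc2
    · exact hc3
  have p1 := (poly_eqs P hTI hnc h1 h2 h4 hC rfl m1 m2 m3 0).1 rfl
  have p2 := (poly_eqs P hTI hnc h1 h2 h4 hC rfl m1 m2 m3 1).2.1 rfl
  have p3 := (poly_eqs P hTI hnc h1 h2 h4 hC rfl m1 m2 m3 2).2.2 rfl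
  obtain ⟨e1, e2, e3⟩ := arith_final m1 m2 m3 p1 p2 p3
  rw [hC a]
  fin_cases a
  · simp [C]
  · simp [C, e1]
  · simp [C, e2]
  · simp [C, e3]

/-- Linear characters. -/
theorem exists_lin {θ : Fin 15 → IrrCharacter G → ℤ}
    (h1 : ∀ l, dot (θ l) (θ l) = 1) {a : Fin 15} (hdeg : Th (θ a) 1 = 1) :
    ∃ L : G →* ℂˣ, ∀ g, Th (θ a) g = (L g : ℂ) := by
  classical
  obtain ⟨χ, s, hs, -, hT⟩ := Th_cases (h1 a)
  have hchar := IsIrrCharacter.isCharacter χ.2
  obtain ⟨n, hn⟩ := IsCharacter.map_one_eq hchar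
  rw [hT, hn] at hdeg
  have hs1 : s = 1 ∧ n = 1 := by
    have h5 : (s * n : ℤ) = 1 := by exact_mod_cast hdeg
    rcases hs with rfl | rfl
    · refine ⟨rfl, ?_⟩
      omega
    · omega
  obtain ⟨rfl, rfl⟩ := hs1
  have h6 : (χ : G → ℂ) 1 = 1 := by simpa using hn
  obtain ⟨L, hL⟩ := exists_hom_of_character_one hchar h6
  refine ⟨L, fun g => ?_⟩
  rw [hT, hL]
  simp

include P in
/-- The main theorem. -/
theorem main_thm
    (T : Subgroup G) (hTH : T ≤ H) (hT : Nat.card T = 27) (hN : Subgroup.normalizer (T : Set G) = H)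
    (hC : ∀ t ∈ T, t ≠ 1 → Subgroup.centralizer ({t} : Set G) ≤ H) : H = ⊤ := by
  classical
  -- `T` in coordinates
  let Tm : Subgroup M :=
    { carrier := {m | m.s = 0 ∧ m.u = 0}
      mul_mem' := fun {x y} hx hy => T_mul x y hx.1 hx.2 hy.1 hy.2
      one_mem' := ⟨rfl, rfl⟩
      inv_mem' := fun {x} hx => T_inv x hx.1 hx.2 }
  have hlamAll : ∀ (a : Fin 4) (i : Fin 3), lamZ a (vv i) = 1 ∨ lamZ a (vv i) = -1 := by decide +kernel
  have hT3 : ∀ x ∈ T, x ^ 27 = 1 := by
    intro x hx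
    have h1 : (⟨x, hx⟩ : T) ^ Nat.card T = 1 := pow_card_eq_one'
    rw [hT] at h1
    simpa using congrArg Subtype.val h1
  have h27 : ∀ m : M, m ^ 27 = 1 → m.s = 0 ∧ m.u = 0 := by decide +kernel
  have hTle : T ≤ Tm.map (PPhom P) := by
    intro x hx
    obtain ⟨m, rfl⟩ := exists_PP P (hTH hx)
    refine ⟨m, ?_, rfl⟩
    apply h27
    apply PP_inj P
    rw [PP_one, ← PPhom_apply, map_pow, PPhom_apply]
    exact hT3 _ hx
  have hPhomInj : Function.Injective (PPhom P) := PP_inj P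
  have hTeq : T = Tm.map (PPhom P) := by
    refine Subgroup.eq_of_le_of_card_ge hTle ?_
    rw [hT]
    have e : Tm ≃* Tm.map (PPhom P) := Tm.equivMapOfInjective _ hPhomInj
    rw [← Nat.card_congr e.toEquiv, Nat.card_eq_fintype_card]
    have : Fintype.card Tm = 27 := by
      rw [← card_T]
      exact Fintype.card_of_subtype _ (fun x => by simp [Tm, Subgroup.mem_mk])
    omega
  have hTP : ∀ m : M, PP P m ∈ T ↔ (m.s = 0 ∧ m.u = 0) := by
    intro m
    rw [hTeq]
    constructor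
    · rintro ⟨n, hn, hnm⟩
      have : n = m := PP_inj P hnm
      rw [← this]
      exact hn
    · intro h
      exact ⟨m, h, rfl⟩
  have hTcomm : ∀ x ∈ T, ∀ y ∈ T, x * y = y * x := by
    intro x hx y hy
    obtain ⟨m, rfl⟩ := exists_PP P (hTH hx)
    obtain ⟨n, rfl⟩ := exists_PP P (hTH hy)
    obtain ⟨a1, a2⟩ := (hTP m).1 hx
    obtain ⟨b1, b2⟩ := (hTP n).1 hy
    rw [← PP_mul, ← PP_mul, T_comm m n a1 a2 b1 b2]
  have hTcube : ∀ x ∈ T, x ^ 3 = 1 := by
    intro x hx
    obtain ⟨m, rfl⟩ := exists_PP P (hTH hx)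
    obtain ⟨a1, a2⟩ := (hTP m).1 hx
    have := T_cube m a1 a2
    rw [pow_succ, pow_two, ← PP_mul, ← PP_mul, this, PP_one]
  -- the key property
  have hTI : ∀ (m m' : M) (g : G), m * m * m * m ≠ 1 → m' * m' * m' * m' ≠ 1 →
      g⁻¹ * PP P m * g = PP P m' → g ∈ H := by
    intro m m' g h1 h2 h3
    have hy : PP P (m * m * m * m) ∈ T := (hTP _).2 (four_T m)
    have hy' : PP P (m' * m' * m' * m') ∈ T := (hTP _).2 (four_T m')
    have hy1' : PP P (m' * m' * m' * m') ≠ 1 := by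
      rw [← PP_one P]
      exact fun h => h2 (PP_inj P h)
    have hconj : g⁻¹ * PP P (m * m * m * m) * g = PP P (m' * m' * m' * m') := by
      simp only [PP_mul]
      rw [← h3]
      group
    have hmap : ∀ t ∈ T, g⁻¹ * t * g ∈ T := by
      intro t ht
      have hc : g⁻¹ * t * g ∈ Subgroup.centralizer ({PP P (m' * m' * m' * m')} : Set G) := by
        rw [Subgroup.mem_centralizer_singleton_iff, ← hconj]
        have := hTcomm t ht _ hy
        have e1 : g⁻¹ * t * g * (g⁻¹ * PP P (m * m * m * m) * g) = g⁻¹ * (t * PP P (m * m * m * m)) * g := by group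
        have e2 : g⁻¹ * PP P (m * m * m * m) * g * (g⁻¹ * t * g) = g⁻¹ * (PP P (m * m * m * m) * t) * g := by group
        rw [e1, e2, this]
      have hH := hC _ hy' hy1' hc
      obtain ⟨n, hn⟩ := exists_PP P hH
      rw [← hn]
      refine (hTP n).2 (cube_T n ?_)
      apply PP_inj P
      rw [PP_one, PP_mul, PP_mul, hn]
      have := hTcube t ht
      have e : g⁻¹ * t * g * (g⁻¹ * t * g) * (g⁻¹ * t * g) = g⁻¹ * t ^ 3 * g := by
        simp only [pow_succ, pow_zero, one_mul, mul_assoc, mul_inv_cancel_left]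
      rw [e, this]; group
    rw [← hN]
    have hginv : g⁻¹ ∈ Subgroup.normalizer (T : Set G) := by
      rw [Subgroup.mem_normalizer_iff]
      intro h
      constructor
      · intro hh
        have := hmap h hh
        simpa using this
      · intro hh
        -- counting
        have hle : T.map (MulAut.conj g⁻¹).toMonoidHom ≤ T := by
          rintro _ ⟨t, ht, rfl⟩
          have := hmap t ht
          simpa using this
        have heq : T.map (MulAut.conj g⁻¹).toMonoidHom = T := by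
          refine Subgroup.eq_of_le_of_card_ge hle ?_
          have e := Subgroup.equivMapOfInjective T (MulAut.conj g⁻¹).toMonoidHom (MulAut.conj g⁻¹).injective
          rw [← Nat.card_congr e.toEquiv]
        rw [← heq] at hh
        obtain ⟨t, ht, hte⟩ := hh
        have : t = h := by
          have h6 : g⁻¹ * t * g = g⁻¹ * h * g := by simpa using hte
          simpa using h6
        rw [← this]
        exact ht
    simpa using Subgroup.inv_mem _ hginv
  obtain ⟨θ, h1, h2, h3, h4⟩ := exists_theta P hTI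
  have hdeg := degrees_one P hTI h1 h2 h3 h4
  obtain ⟨L₁, hL₁⟩ := exists_lin h1 (hdeg 1)
  obtain ⟨L₂, hL₂⟩ := exists_lin h1 (hdeg 2)
  have hnc := nonconj P h1 h3 h4
  -- values on generators
  have hgen : ∀ (a : Fin 4) (L : G →* ℂˣ), a ≠ 0 → (∀ g, Th (θ (la a)) g = (L g : ℂ)) →
      ∀ m, ((L (PP P m) : ℂˣ) : ℂ) = lamZ a m := by
    intro a L ha hL m
    have hv : ∀ i, ((L (PP P (vv i)) : ℂˣ) : ℂ) = lamZ a (vv i) := by
      intro i
      obtain ⟨n, hn⟩ := mod_three P h1 h3 h4 a ha i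
      rw [hL] at hn
      have hv2 : (L (PP P (vv i))) ^ 2 = 1 := by
        rw [← map_pow, pow_two, ← PP_mul, (vv_invol i).1, PP_one, map_one]
      have hsq : ((L (PP P (vv i)) : ℂˣ) : ℂ) ^ 2 = 1 := by
        have := congrArg Units.val hv2
        simpa using this
      have hlam : lamZ a (vv i) = 1 ∨ lamZ a (vv i) = -1 := hlamAll a i
      have hpm : ((L (PP P (vv i)) : ℂˣ) : ℂ) = 1 ∨ ((L (PP P (vv i)) : ℂˣ) : ℂ) = -1 := by
        have h6 : (((L (PP P (vv i)) : ℂˣ) : ℂ) - 1) * (((L (PP P (vv i)) : ℂˣ) : ℂ) + 1) = 0 := by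
          linear_combination hsq
        rcases mul_eq_zero.mp h6 with h7 | h7
        · exact Or.inl (by linear_combination h7)
        · exact Or.inr (by linear_combination h7)
      rcases hlam with hl | hl <;> rcases hpm with hp | hp <;> rw [hl] <;> rw [hl, hp] at hn
      · rw [hp]; simp
      · exfalso
        have h8 : ((1 : ℤ) : ℂ) = ((3 * n : ℤ) : ℂ) := by
          push_cast at hn ⊢
          linear_combination hn
        have h9 : (1 : ℤ) = 3 * n := by exact_mod_cast h8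
        omega
      · exfalso
        have h8 : ((-1 : ℤ) : ℂ) = ((3 * n : ℤ) : ℂ) := by
          push_cast at hn ⊢
          linear_combination hn
        have h9 : (-1 : ℤ) = 3 * n := by exact_mod_cast h8
        omega
      · rw [hp]; simp
    have hT1 : ∀ e : M, inL e = true → lamZ a e = 1 → L (PP P e) = 1 := by
      intro e he hl
      apply Units.ext
      rw [← hL, value_la P h3 h4 he a ha, hl]
      simp
    obtain ⟨l1, l2, l3⟩ := lam_gens a
    obtain ⟨g1, g2, g3⟩ := gens_L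
    obtain ⟨g4, g5⟩ := g45
    have hm : PP P m = (PP P g₁) ^ m.a.val * (PP P g₂) ^ m.b.val * (PP P g₃) ^ m.c.val * (PP P (vv 1)) ^ m.s.val * (PP P (vv 2)) ^ m.u.val := by
      rw [← PPhom_apply]
      conv_lhs => rw [M_gen m]
      rw [g4, g5]
      simp only [map_mul, map_pow, PPhom_apply]
    rw [hm]
    simp only [map_mul, map_pow, hT1 g₁ g1 l1, hT1 g₂ g2 l2, hT1 g₃ g3 l3, one_pow, one_mul, Units.val_mul, Units.val_pow_eq_pow_val, hv]
    rw [lam_form a m]
    push_cast
    rfl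
  have hV₁ := hgen 1 L₁ (by decide) hL₁
  have hV₂ := hgen 2 L₂ (by decide) hL₂
  -- finish
  refine finish_group (T := T) (K := L₁.ker ⊓ L₂.ker) (H := H) (by infer_instance) ?_ ?_ hN hT hTcomm hTcube hC
  · intro t ht
    obtain ⟨m, rfl⟩ := exists_PP P (hTH ht)
    obtain ⟨a1, a2⟩ := (hTP m).1 ht
    refine ⟨?_, ?_⟩
    · show L₁ (PP P m) = 1
      apply Units.ext
      rw [hV₁, T_lam 1 m a1 a2]
      simp
    · show L₂ (PP P m) = 1
      apply Units.ext
      rw [hV₂, T_lam 2 m a1 a2]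
      simp
  · intro x hx hxH
    obtain ⟨m, rfl⟩ := exists_PP P hxH
    obtain ⟨k1, k2⟩ := hx
    replace k1 : L₁ (PP P m) = 1 := k1
    replace k2 : L₂ (PP P m) = 1 := k2
    have v1 : (lamZ 1 m : ℂ) = 1 := by
      rw [← hV₁, k1]; simp
    have v2 : (lamZ 2 m : ℂ) = 1 := by
      rw [← hV₂, k2]; simp
    have v1' : lamZ 1 m = 1 := by exact_mod_cast v1
    have v2' : lamZ 2 m = 1 := by exact_mod_cast v2
    have key : ∀ m : M, lamZ 1 m = 1 → lamZ 2 m = 1 → m.s = 0 ∧ m.u = 0 := by decide +kernel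
    exact (hTP m).2 (key m v1' v2')

end Cfsg.Agent.Lib.H108
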