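import Cfsg.Agent.Lib.H108.Lattice

/-!
# An explicit model of the group `3³ : 2²` of order 108.
-/

set_option autoImplicit false
set_option linter.unusedSimpArgs false
set_option linter.unusedSectionVars false
set_option linter.unusedVariables false

namespace Cfsg.Agent.Lib.H108

/-- The underlying type: coordinates `(a,b,c,s,u)`. -/
@[ext] structure M where
  a : Fin 3
  b : Fin 3
  c : Fin 3
  s : Fin 2
  u : Fin 2
  deriving DecidableEq

/-- The coordinates. -/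
def M.equiv : Fin 3 × Fin 3 × Fin 3 × Fin 2 × Fin 2 ≃ M where
  toFun x := ⟨x.1, x.2.1, x.2.2.1, x.2.2.2.1, x.2.2.2.2⟩
  invFun m := (m.a, m.b, m.c, m.s, m.u)
  left_inv _ := rfl
  right_inv _ := rfl

instance : Fintype M := Fintype.ofEquiv _ M.equiv

/-- The sign action of a coordinate of `Fin 2` on `Fin 3`. -/
def sg (s : Fin 2) (a : Fin 3) : Fin 3 := if s = 0 then a else -a

/-- multiplication: `(t,v)(t',v') = (t + v·t', v+v')`, where `v = v₂^s v₃^u` acts by
the signs `(s+u, u, s)`. -/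
instance : Mul M := ⟨fun x y =>
  ⟨x.a + sg (x.s + x.u) y.a, x.b + sg x.u y.b, x.c + sg x.s y.c, x.s + y.s, x.u + y.u⟩⟩

instance : One M := ⟨⟨0, 0, 0, 0, 0⟩⟩

instance : Inv M := ⟨fun x => ⟨-(sg (x.s + x.u) x.a), -(sg x.u x.b), -(sg x.s x.c), x.s, x.u⟩⟩

theorem M.mul_def (x y : M) : x * y =
  ⟨x.a + sg (x.s + x.u) y.a, x.b + sg x.u y.b, x.c + sg x.s y.c, x.s + y.s, x.u + y.u⟩ := rfl

theorem sg_assoc : ∀ (a a' a'' : Fin 3) (s t : Fin 2), a + sg s a' + sg (s + t) a'' = a + sg s (a' + sg t a'') := by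
  decide +kernel

theorem add_assoc₂ : ∀ s t r : Fin 2, s + t + r = s + (t + r) := by decide +kernel

theorem add_swap₂ : ∀ s t s' t' : Fin 2, s + s' + (t + t') = s + t + (s' + t') := by decide +kernel

instance : Group M := Group.ofLeftAxioms
  (by
    intro x y z
    simp only [M.mul_def, M.mk.injEq]
    refine ⟨?_, sg_assoc _ _ _ _ _, sg_assoc _ _ _ _ _, add_assoc₂ _ _ _, add_assoc₂ _ _ _⟩
    rw [add_swap₂]
    exact sg_assoc _ _ _ _ _)
  (by decide +kernel)
  (by decide +kernel)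

theorem card_M : Fintype.card M = 108 := by decide +kernel

/-- The flip used in the action on nine points. -/
def fl (s : Fin 2) (r : Fin 3) : Fin 3 := if s = 0 then r else 1 - r

theorem fl_key : ∀ (s t : Fin 2) (r a a' : Fin 3), fl (s + t) r + (a + sg s a') = fl s (fl t r + a') + a := by
  decide +kernel

/-- The affine action on the three blocks. -/
def act (m : M) (x : Fin 3 × Fin 3) : Fin 3 × Fin 3 :=
  (x.1, if x.1 = 0 then fl (m.s + m.u) x.2 + m.a else if x.1 = 1 then fl m.u x.2 + m.b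
    else fl m.s x.2 + m.c)

instance : MulAction M (Fin 3 × Fin 3) where
  smul := act
  one_smul := by decide +kernel
  mul_smul := by
    rintro x y ⟨i, r⟩
    change act (x * y) (i, r) = act x (act y (i, r))
    simp only [act, M.mul_def]
    refine Prod.ext rfl ?_
    fin_cases i
    · simp only [Fin.zero_eta, if_true]
      rw [add_swap₂]
      exact fl_key _ _ _ _ _
    · simp only [Fin.mk_one]
      simp
      exact fl_key _ _ _ _ _
    · simp
      exact fl_key _ _ _ _ _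

theorem smul_def (m : M) (x : Fin 3 × Fin 3) : m • x = act m x := rfl

/-- The nine points. -/
def nine : Fin 3 × Fin 3 ≃ Fin 9 where
  toFun x := ⟨3 * x.1.val + x.2.val, by
    have h1 := x.1.isLt
    have h2 := x.2.isLt
    omega⟩
  invFun y := (⟨y.val / 3, by omega⟩, ⟨y.val % 3, by omega⟩)
  left_inv := by decide +kernel
  right_inv := by decide +kernel

/-- The permutation representation. -/
def p₀ : M →* Equiv.Perm (Fin 9) :=
  (Equiv.permCongrHom nine).toMonoidHom.comp (MulAction.toPermHom M (Fin 3 × Fin 3))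

theorem p₀_apply (m : M) (y : Fin 9) : p₀ m y = nine (act m (nine.symm y)) := rfl

theorem p₀_inj : Function.Injective p₀ := by
  rw [injective_iff_map_eq_one]
  have key : ∀ m : M, (∀ y : Fin 9, nine (act m (nine.symm y)) = y) → m = 1 := by decide +kernel
  intro m hm
  refine key m fun y => ?_
  rw [← p₀_apply, hm]; rfl

/-- The generators. -/
def g₁ : M := ⟨1, 0, 0, 0, 0⟩
def g₂ : M := ⟨0, 1, 0, 0, 0⟩
def g₃ : M := ⟨0, 0, 1, 0, 0⟩
def g₄ : M := ⟨0, 0, 0, 0, 1⟩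
def g₅ : M := ⟨0, 0, 0, 1, 0⟩

theorem p₀_g₁ : p₀ g₁ = Equiv.swap 0 1 * Equiv.swap 1 2 := by
  apply Equiv.ext; exact (by decide +kernel : ∀ y : Fin 9, nine (act g₁ (nine.symm y)) = ((Equiv.swap (0 : Fin 9) 1 * Equiv.swap 1 2 : Equiv.Perm (Fin 9)) y))
theorem p₀_g₂ : p₀ g₂ = Equiv.swap 3 4 * Equiv.swap 4 5 := by
  apply Equiv.ext; exact (by decide +kernel : ∀ y : Fin 9, nine (act g₂ (nine.symm y)) = ((Equiv.swap (3 : Fin 9) 4 * Equiv.swap 4 5 : Equiv.Perm (Fin 9)) y))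
theorem p₀_g₃ : p₀ g₃ = Equiv.swap 6 7 * Equiv.swap 7 8 := by
  apply Equiv.ext; exact (by decide +kernel : ∀ y : Fin 9, nine (act g₃ (nine.symm y)) = ((Equiv.swap (6 : Fin 9) 7 * Equiv.swap 7 8 : Equiv.Perm (Fin 9)) y))
theorem p₀_g₄ : p₀ g₄ = Equiv.swap 0 1 * Equiv.swap 3 4 := by
  apply Equiv.ext; exact (by decide +kernel : ∀ y : Fin 9, nine (act g₄ (nine.symm y)) = ((Equiv.swap (0 : Fin 9) 1 * Equiv.swap 3 4 : Equiv.Perm (Fin 9)) y))
theorem p₀_g₅ : p₀ g₅ = Equiv.swap 0 1 * Equiv.swap 6 7 := by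
  apply Equiv.ext; exact (by decide +kernel : ∀ y : Fin 9, nine (act g₅ (nine.symm y)) = ((Equiv.swap (0 : Fin 9) 1 * Equiv.swap 6 7 : Equiv.Perm (Fin 9)) y))

/-- Every element is a product of generators. -/
theorem M_gen : ∀ m : M, m = g₁ ^ m.a.val * g₂ ^ m.b.val * g₃ ^ m.c.val * g₅ ^ m.s.val * g₄ ^ m.u.val := by
  decide +kernel

/-- The closure in the statement is the image of `p₀`. -/
theorem closure_eq_range : Subgroup.closure ({Equiv.swap (0 : Fin 9) 1 * Equiv.swap 1 2, Equiv.swap (3 : Fin 9) 4 * Equiv.swap 4 5, Equiv.swap (6 : Fin 9) 7 * Equiv.swap 7 8,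
        Equiv.swap (0 : Fin 9) 1 * Equiv.swap 3 4, Equiv.swap (0 : Fin 9) 1 * Equiv.swap 6 7} : Set (Equiv.Perm (Fin 9))) = p₀.range := by
  apply le_antisymm
  · rw [Subgroup.closure_le]
    rintro x (rfl | rfl | rfl | rfl | rfl)
    · exact ⟨g₁, p₀_g₁⟩
    · exact ⟨g₂, p₀_g₂⟩
    · exact ⟨g₃, p₀_g₃⟩
    · exact ⟨g₄, p₀_g₄⟩
    · exact ⟨g₅, p₀_g₅⟩
  · rintro x ⟨m, rfl⟩
    rw [M_gen m]
    simp only [map_mul, map_pow]
    refine Subgroup.mul_mem _ (Subgroup.mul_mem _ (Subgroup.mul_mem _ (Subgroup.mul_mem _ ?_ ?_) ?_) ?_) ?_ <;>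
      refine Subgroup.pow_mem _ (Subgroup.subset_closure ?_) _
    · rw [p₀_g₁]; simp
    · rw [p₀_g₂]; simp
    · rw [p₀_g₃]; simp
    · rw [p₀_g₅]; simp
    · rw [p₀_g₄]; simp

/-- The model is isomorphic to the closure. -/
noncomputable def isoClosure : M ≃* ↥(Subgroup.closure ({Equiv.swap (0 : Fin 9) 1 * Equiv.swap 1 2, Equiv.swap (3 : Fin 9) 4 * Equiv.swap 4 5, Equiv.swap (6 : Fin 9) 7 * Equiv.swap 7 8,
        Equiv.swap (0 : Fin 9) 1 * Equiv.swap 3 4, Equiv.swap (0 : Fin 9) 1 * Equiv.swap 6 7} : Set (Equiv.Perm (Fin 9)))) :=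
  (MonoidHom.ofInjective p₀_inj).trans (MulEquiv.subgroupCongr closure_eq_range.symm)

end Cfsg.Agent.Lib.H108
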