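import Cfsg.Agent.Lib.H108.Model

/-!
# The character table data of the model, computed in `ℤ[ω]`.
-/

set_option autoImplicit false
set_option linter.unusedSimpArgs false
set_option linter.unusedSectionVars false
set_option linter.unusedVariables false

namespace Cfsg.Agent.Lib.H108

/-- Pairs of integers, to be read as `x + y ω`. -/
abbrev RR := ℤ × ℤ

/-- Multiplication in `ℤ[ω]`. -/
def rm (x y : RR) : RR := (x.1 * y.1 - x.2 * y.2, x.1 * y.2 + x.2 * y.1 - x.2 * y.2)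

/-- Conjugation in `ℤ[ω]`. -/
def rc (x : RR) : RR := (x.1 - x.2, -x.2)

/-- Scalars. -/
def rs (n : ℤ) (y : RR) : RR := (n * y.1, n * y.2)

/-- Powers of `ω`. -/
def ww (t : Fin 3) : RR := if t = 0 then (1, 0) else if t = 1 then (0, 1) else (-1, -1)

def cc (t : Fin 3) : ℤ := if t = 0 then 2 else -1

def sz (s : Fin 2) : ℤ := if s = 0 then 1 else -1

/-- The linear characters. -/
def lamZ (a : Fin 4) (m : M) : ℤ :=
  ![1, sz (m.s + m.u), sz m.u, sz m.s] a

/-- The remaining integer valued characters. -/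
def phiP (i : Fin 3) (m : M) : ℤ :=
  ![if m.s = m.u then cc m.a else 0, if m.u = 0 then cc m.b else 0, if m.s = 0 then cc m.c else 0] i

def phiM (i : Fin 3) (m : M) : ℤ :=
  ![if m.s = m.u then sz m.u * cc m.a else 0, if m.u = 0 then sz m.s * cc m.b else 0,
    if m.s = 0 then sz m.u * cc m.c else 0] i

def bigPhi (i : Fin 3) (m : M) : ℤ :=
  if m.s = 0 ∧ m.u = 0 then ![cc m.b * cc m.c, cc m.a * cc m.c, cc m.a * cc m.b] i else 0

def phi4 (m : M) : RR :=
  if m.s = 0 ∧ m.u = 0 then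
    ww (m.a + m.b + m.c) + ww (m.a - m.b - m.c) + ww (-m.a + m.b - m.c) + ww (-m.a - m.b + m.c)
  else 0

def phi5 (m : M) : RR :=
  if m.s = 0 ∧ m.u = 0 then
    ww (-m.a - m.b - m.c) + ww (-m.a + m.b + m.c) + ww (m.a - m.b + m.c) + ww (m.a + m.b - m.c)
  else 0

/-- All fifteen characters. -/
def fn (l : Fin 15) (m : M) : RR :=
  ![(lamZ 0 m, 0), (lamZ 1 m, 0), (lamZ 2 m, 0), (lamZ 3 m, 0),
    (phiP 0 m, 0), (phiP 1 m, 0), (phiP 2 m, 0),
    (phiM 0 m, 0), (phiM 1 m, 0), (phiM 2 m, 0),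
    (bigPhi 0 m, 0), (bigPhi 1 m, 0), (bigPhi 2 m, 0), phi4 m, phi5 m] l

/-- The combinations vanishing on the elements of order dividing four. -/
def al (l : Fin 11) (m : M) : RR :=
  fn (lb l) m - (∑ a, mult l a * lamZ a m, 0)

theorem al_gram : ∀ l l' : Fin 11, ∑ m : M, rm (al l m) (rc (al l' m)) = (108 * gram l l', 0) := by
  decide +kernel

theorem al_one : ∀ l : Fin 11, ∑ m : M, al l m = (108 * (- mult l 0), 0) := by
  decide +kernel

theorem al_van : ∀ (l : Fin 11) (m : M), m * m * m * m = 1 → al l m = 0 := by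
  decide +kernel

/-- Membership in the subgroups we induce from. -/
def subB (l : Fin 15) (m : M) : Bool :=
  ![true, true, true, true,
    decide (m.s = m.u), decide (m.u = 0), decide (m.s = 0),
    decide (m.s = m.u), decide (m.u = 0), decide (m.s = 0),
    decide (m.s = 0 ∧ m.u = 0), decide (m.s = 0 ∧ m.u = 0), decide (m.s = 0 ∧ m.u = 0),
    decide (m.s = 0 ∧ m.u = 0), decide (m.s = 0 ∧ m.u = 0)] l

/-- The linear character we induce. -/
def nu (l : Fin 15) (m : M) : RR :=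
  ![(lamZ 0 m, 0), (lamZ 1 m, 0), (lamZ 2 m, 0), (lamZ 3 m, 0),
    if m.s = m.u then ww m.a else 0, if m.u = 0 then ww m.b else 0, if m.s = 0 then ww m.c else 0,
    if m.s = m.u then rs (sz m.u) (ww m.a) else 0, if m.u = 0 then rs (sz m.s) (ww m.b) else 0,
    if m.s = 0 then rs (sz m.u) (ww m.c) else 0,
    if m.s = 0 ∧ m.u = 0 then ww (m.b + m.c) else 0,
    if m.s = 0 ∧ m.u = 0 then ww (m.a + m.c) else 0,
    if m.s = 0 ∧ m.u = 0 then ww (m.a + m.b) else 0,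
    if m.s = 0 ∧ m.u = 0 then ww (m.a + m.b + m.c) else 0,
    if m.s = 0 ∧ m.u = 0 then ww (- m.a - m.b - m.c) else 0] l

/-- The order of the subgroup. -/
def cardS (l : Fin 15) : ℕ := ![108, 108, 108, 108, 54, 54, 54, 54, 54, 54, 27, 27, 27, 27, 27] l

/-- The elements where the class expansion is needed. -/
def inL (x : M) : Bool :=
  decide (x = ⟨1, 0, 0, 0, 0⟩) || decide (x = ⟨0, 1, 0, 0, 0⟩) || decide (x = ⟨0, 0, 1, 0, 0⟩) ||
  decide (x = ⟨1, 1, 0, 0, 0⟩) || decide (x = ⟨1, 0, 1, 0, 0⟩) || decide (x = ⟨0, 1, 1, 0, 0⟩) ||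
  decide (x = ⟨1, 0, 0, 1, 1⟩) || decide (x = ⟨0, 1, 0, 1, 0⟩) || decide (x = ⟨0, 0, 1, 0, 1⟩)

/-- Centralizer order. -/
def cent (x : M) : ℕ := if x.s = 0 ∧ x.u = 0 then
    (if x.a * x.b = 0 ∧ x.a * x.c = 0 ∧ x.b * x.c = 0 then 54 else 27) else 6

/-- The class, explicitly. -/
def clP (x h : M) : Bool :=
  decide (h.s = x.s ∧ h.u = x.u) &&
    (if x.s = 0 ∧ x.u = 0 then decide ((h.a = 0 ↔ x.a = 0) ∧ (h.b = 0 ↔ x.b = 0) ∧ (h.c = 0 ↔ x.c = 0))
     else if x.s = 1 ∧ x.u = 1 then decide (h.a ≠ 0)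
     else if x.s = 1 ∧ x.u = 0 then decide (h.b ≠ 0)
     else decide (h.c ≠ 0))

end Cfsg.Agent.Lib.H108
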