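import Cfsg.Agent.Lib.H108.Table

/-!
# Class expansions and subgroup data.
-/

set_option autoImplicit false
set_option linter.unusedSimpArgs false
set_option linter.unusedSectionVars false
set_option linter.unusedVariables false

namespace Cfsg.Agent.Lib.H108

theorem sub_one : ∀ l, subB (lb l) 1 = true := by decide +kernel

theorem sub_inv : ∀ l m, subB (lb l) m = true → subB (lb l) m⁻¹ = true := by decide +kernel

theorem nu_zero : ∀ l m, subB (lb l) m = false → nu (lb l) m = 0 := by decide +kernel

theorem nu_one : ∀ l, nu (lb l) 1 = (1, 0) := by decide +kernel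

theorem nu_unit : ∀ l m, subB (lb l) m = true → rm (nu (lb l) m) (rc (nu (lb l) m)) = (1, 0) := by decide +kernel

theorem sub_card : ∀ l, (Finset.univ.filter (fun m => subB (lb l) m = true)).card = cardS (lb l) := by decide +kernel

theorem expand_L : ∀ x, inL x = true → ∀ h, ∑ l, rs (fn (lb l) x).1 (al l h) =
    (if clP x h = true then (cent x : ℤ) else 0, 0) := by
  decide +kernel

theorem clP_conj : ∀ x, inL x = true → ∀ h, clP x h = true → ∃ g : M, g * x * g⁻¹ = h := by
  decide +kernel

theorem cent_card : ∀ x, inL x = true → cent x * (Finset.univ.filter (fun h => clP x h = true)).card = 108 := by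
  decide +kernel

theorem van_L : ∀ x, inL x = true → ∀ a, lamZ a x + ∑ l, (fn (lb l) x).1 * mult l a = 0 := by
  decide +kernel

theorem real_L : ∀ x, inL x = true → ∀ l, (fn l x).2 = 0 := by
  decide +kernel

theorem clP_self : ∀ x, inL x = true → clP x x = true := by decide +kernel

end Cfsg.Agent.Lib.H108
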