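import Cfsg.Agent.Lib.H108.Ind
import Cfsg.Agent.Lib.Block.Central

/-!
# Values of the signed irreducibles; the class formula.
-/

set_option autoImplicit false
set_option linter.unusedSimpArgs false
set_option linter.unusedSectionVars false
set_option linter.unusedVariables false

open scoped ComplexConjugate

namespace Cfsg.Agent.Lib.H108

open Cfsg Cfsg.Agent.Lib.Char

universe u

variable {G : Type u} [Group G] [Fintype G] {H : Subgroup G} (P : M ≃* H)

/-- The value of a vector of coefficients. -/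
noncomputable def Th (v : IrrCharacter G → ℤ) (g : G) : ℂ := ∑ χ, (v χ : ℂ) * (χ : G → ℂ) g

open Classical in
theorem Th_cases {v : IrrCharacter G → ℤ} (hU : dot v v = 1) :
    ∃ (χ : IrrCharacter G) (s : ℤ), (s = 1 ∨ s = -1) ∧ (∀ χ', v χ' = if χ' = χ then s else 0) ∧
      ∀ g, Th v g = s * (χ : G → ℂ) g := by
  obtain ⟨χ, hχ⟩ := unit_eq hU
  rcases hχ with h | h
  · refine ⟨χ, 1, Or.inl rfl, ?_, ?_⟩
    · intro χ'
      rw [h]; simp [ee, Pi.single_apply]
    · intro g
      simp only [Th, h, ee]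
      rw [Finset.sum_eq_single χ]
      · simp
      · intro b _ hb
        simp [hb]
      · intro hh; exact absurd (Finset.mem_univ _) hh
  · refine ⟨χ, -1, Or.inr rfl, ?_, ?_⟩
    · intro χ'
      rw [h]
      by_cases hc : χ' = χ
      · simp [hc, ee]
      · simp [hc, ee]
    · intro g
      simp only [Th, h, ee]
      rw [Finset.sum_eq_single χ]
      · simp
      · intro b _ hb
        simp [hb]
      · intro hh; exact absurd (Finset.mem_univ _) hh

theorem Th_one_ne {v : IrrCharacter G → ℤ} (hU : dot v v = 1) : Th v 1 ≠ 0 := by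
  obtain ⟨χ, s, hs, -, h⟩ := Th_cases hU
  rw [h]
  have := map_one_ne_zero_of_irr χ.2
  rcases hs with rfl | rfl <;> simpa using this

theorem Th_class {v : IrrCharacter G → ℤ} (a b : G) (hab : IsConj a b) : Th v a = Th v b := by
  simp only [Th]
  refine Finset.sum_congr rfl fun χ _ => ?_
  rw [IsCharacter.map_isConj (IsIrrCharacter.isCharacter χ.2) hab]

/-- The relation between `tl` and `Th`. -/
theorem tl_apply {θ : Fin 15 → IrrCharacter G → ℤ}
    (h4 : ∀ l, tl P l = ∑ χ, ((θ (lb l) χ - ∑ a, mult l a * θ (la a) χ : ℤ) : ℂ) • (χ : G → ℂ))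
    (l : Fin 11) (g : G) :
    tl P l g = Th (θ (lb l)) g - ∑ a, (mult l a : ℂ) * Th (θ (la a)) g := by
  rw [h4 l]
  simp only [Finset.sum_apply, Pi.smul_apply, smul_eq_mul, Th]
  push_cast
  have e : ∀ χ : IrrCharacter G, ((θ (lb l) χ : ℂ) - ∑ a, (mult l a : ℂ) * (θ (la a) χ : ℂ)) * (χ : G → ℂ) g =
      (θ (lb l) χ : ℂ) * (χ : G → ℂ) g - ∑ a, (mult l a : ℂ) * ((θ (la a) χ : ℂ) * (χ : G → ℂ) g) := by
    intro χ
    rw [_root_.sub_mul, Finset.sum_mul]
    congr 1
    refine Finset.sum_congr rfl fun a _ => ?_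
    ring
  simp only [e, Finset.sum_sub_distrib, Finset.mul_sum]
  congr 1
  exact Finset.sum_comm

theorem Th_rel {θ : Fin 15 → IrrCharacter G → ℤ}
    (h4 : ∀ l, tl P l = ∑ χ, ((θ (lb l) χ - ∑ a, mult l a * θ (la a) χ : ℤ) : ℂ) • (χ : G → ℂ))
    (l : Fin 11) {g : G} (hg : g * g * g * g = 1) :
    Th (θ (lb l)) g = ∑ a, (mult l a : ℂ) * Th (θ (la a)) g := by
  have := tl_apply P h4 l g
  rw [tl_zero P l hg] at this
  exact (sub_eq_zero.mp this.symm)

theorem inner_tl {θ : Fin 15 → IrrCharacter G → ℤ}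
    (h4 : ∀ l, tl P l = ∑ χ, ((θ (lb l) χ - ∑ a, mult l a * θ (la a) χ : ℤ) : ℂ) • (χ : G → ℂ))
    (l : Fin 11) (χ : IrrCharacter G) :
    classInner (tl P l) (χ : G → ℂ) = ((θ (lb l) χ - ∑ a, mult l a * θ (la a) χ : ℤ) : ℂ) := by
  rw [h4 l]
  exact coeff_eq _ χ

/-- The class expansion at the chosen elements. -/
theorem expand {θ : Fin 15 → IrrCharacter G → ℤ}
    (h4 : ∀ l, tl P l = ∑ χ, ((θ (lb l) χ - ∑ a, mult l a * θ (la a) χ : ℤ) : ℂ) • (χ : G → ℂ))
    {x : M} (hx : inL x = true) (χ : IrrCharacter G) :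
    conj ((χ : G → ℂ) (PP P x)) = ∑ a, (lamZ a x : ℂ) * (θ (la a) χ : ℂ) +
      ∑ l, ((fn (lb l) x).1 : ℂ) * (θ (lb l) χ : ℂ) := by
  classical
  have hcl := IsCharacter.isClassFunction (IsIrrCharacter.isCharacter χ.2)
  have hval : ∀ m, clP x m = true → (χ : G → ℂ) (PP P m) = (χ : G → ℂ) (PP P x) := by
    intro m hm
    obtain ⟨g, rfl⟩ := clP_conj x hx m hm
    rw [PP_mul, PP_mul, PP_inv]
    exact hcl _ _
  have A : ∑ l, ((fn (lb l) x).1 : ℂ) * classInner (tl P l) (χ : G → ℂ) = conj ((χ : G → ℂ) (PP P x)) := by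
    have h1 : ∀ l, classInner (tl P l) (χ : G → ℂ) =
        (108 : ℂ)⁻¹ * ∑ m, iota (al l m) * conj ((χ : G → ℂ) (PP P m)) := fun l => tau_inner P _ hcl
    simp only [h1]
    have h2 : ∀ m, ∑ l, ((fn (lb l) x).1 : ℂ) * iota (al l m) =
        if clP x m = true then (cent x : ℂ) else 0 := by
      intro m
      have h3 := congrArg iota (expand_L x hx m)
      rw [iota_sum, iota_mk] at h3
      simp only [iota_rs] at h3
      rw [h3]
      split_ifs <;> simp
    have h5 : ∑ l, ((fn (lb l) x).1 : ℂ) * ((108 : ℂ)⁻¹ * ∑ m, iota (al l m) * conj ((χ : G → ℂ) (PP P m))) =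
        (108 : ℂ)⁻¹ * ∑ m, (∑ l, ((fn (lb l) x).1 : ℂ) * iota (al l m)) * conj ((χ : G → ℂ) (PP P m)) := by
      simp only [Finset.mul_sum, Finset.sum_mul]
      rw [Finset.sum_comm]
      refine Finset.sum_congr rfl fun m _ => Finset.sum_congr rfl fun l _ => ?_
      ring
    rw [h5]
    simp only [h2]
    have h6 : ∑ m, (if clP x m = true then (cent x : ℂ) else 0) * conj ((χ : G → ℂ) (PP P m)) =
        ∑ m ∈ Finset.univ.filter (fun m => clP x m = true), (cent x : ℂ) * conj ((χ : G → ℂ) (PP P x)) := by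
      rw [Finset.sum_filter]
      refine Finset.sum_congr rfl fun m _ => ?_
      by_cases hm : clP x m = true
      · rw [if_pos hm, if_pos hm, hval m hm]
      · rw [if_neg hm, if_neg hm, zero_mul]
    rw [h6, Finset.sum_const, nsmul_eq_mul]
    have h7 : ((Finset.univ.filter (fun m => clP x m = true)).card : ℂ) * (cent x : ℂ) = 108 := by
      have := cent_card x hx
      rw [mul_comm]
      exact_mod_cast this
    linear_combination ((108 : ℂ)⁻¹ * conj ((χ : G → ℂ) (PP P x))) * h7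
  rw [← A]
  simp only [inner_tl P h4]
  push_cast
  simp only [mul_sub, Finset.sum_sub_distrib]
  have h8 : ∑ l, ((fn (lb l) x).1 : ℂ) * ∑ a, (mult l a : ℂ) * (θ (la a) χ : ℂ) =
      - ∑ a, (lamZ a x : ℂ) * (θ (la a) χ : ℂ) := by
    simp only [Finset.mul_sum]
    rw [Finset.sum_comm, ← Finset.sum_neg_distrib]
    refine Finset.sum_congr rfl fun a _ => ?_
    have h9 : (lamZ a x : ℂ) + ∑ l, ((fn (lb l) x).1 : ℂ) * (mult l a : ℂ) = 0 := by
      exact_mod_cast van_L x hx a
    have h10 : ∑ l, ((fn (lb l) x).1 : ℂ) * ((mult l a : ℂ) * (θ (la a) χ : ℂ)) =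
        (∑ l, ((fn (lb l) x).1 : ℂ) * (mult l a : ℂ)) * (θ (la a) χ : ℂ) := by
      rw [Finset.sum_mul]
      refine Finset.sum_congr rfl fun l _ => ?_
      ring
    rw [h10]
    linear_combination (θ (la a) χ : ℂ) * h9
  rw [h8]
  ring

/-- Values of the signed linear-type characters at the chosen elements. -/
theorem value_la {θ : Fin 15 → IrrCharacter G → ℤ}
    (h3 : ∀ a l, (a = 1 ∨ a = 2 ∨ a = 3) → dot (θ a) (θ l) = if a = l then 1 else 0)
    (h4 : ∀ l, tl P l = ∑ χ, ((θ (lb l) χ - ∑ a, mult l a * θ (la a) χ : ℤ) : ℂ) • (χ : G → ℂ))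
    {x : M} (hx : inL x = true) (a : Fin 4) (ha : a ≠ 0) :
    Th (θ (la a)) (PP P x) = lamZ a x := by
  classical
  have ha' : la a = 1 ∨ la a = 2 ∨ la a = 3 := by
    revert a; decide
  have h1 : conj (Th (θ (la a)) (PP P x)) = ∑ χ, (θ (la a) χ : ℂ) * conj ((χ : G → ℂ) (PP P x)) := by
    simp only [Th, map_sum, map_mul, map_intCast]
  have h2 : conj (Th (θ (la a)) (PP P x)) = (lamZ a x : ℂ) := by
    rw [h1]
    simp only [expand P h4 hx, mul_add, Finset.sum_add_distrib, Finset.mul_sum]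
    have hd1 : ∀ b, ∑ χ, (θ (la a) χ : ℂ) * ((lamZ b x : ℂ) * (θ (la b) χ : ℂ)) =
        (lamZ b x : ℂ) * (dot (θ (la a)) (θ (la b)) : ℂ) := by
      intro b
      simp only [dot]
      push_cast
      rw [Finset.mul_sum]
      refine Finset.sum_congr rfl fun χ _ => ?_
      ring
    have hd2 : ∀ l, ∑ χ, (θ (la a) χ : ℂ) * (((fn (lb l) x).1 : ℂ) * (θ (lb l) χ : ℂ)) =
        ((fn (lb l) x).1 : ℂ) * (dot (θ (la a)) (θ (lb l)) : ℂ) := by
      intro l
      simp only [dot]
      push_cast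
      rw [Finset.mul_sum]
      refine Finset.sum_congr rfl fun χ _ => ?_
      ring
    rw [Finset.sum_comm, Finset.sum_comm (s := Finset.univ) (t := Finset.univ) (f := fun χ l => (θ (la a) χ : ℂ) * (((fn (lb l) x).1 : ℂ) * (θ (lb l) χ : ℂ)))]
    simp only [hd1, hd2, h3 _ _ ha']
    have hne : ∀ l, la a ≠ lb l := by
      intro l h
      have := congrArg Fin.val h
      simp [la, lb] at this
      omega
    have hlaa : ∀ b, la a = la b ↔ a = b := by
      intro b
      constructor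
      · intro h
        have := congrArg Fin.val h
        simp [la] at this
        exact Fin.ext this
      · rintro rfl; rfl
    simp [hne, hlaa]
  have h5 : Th (θ (la a)) (PP P x) = conj (conj (Th (θ (la a)) (PP P x))) := by simp
  rw [h5, h2]
  simp

open Classical in
/-- The class formula. -/
theorem class_formula (v x : G) :
    ((Finset.univ.filter (fun a : G => IsConj v a ∧ IsConj v (a⁻¹ * x))).card : ℂ) * (Nat.card G : ℂ) =
      ((Subgroup.centralizer ({v} : Set G)).index : ℂ) ^ 2 *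
        ∑ χ : IrrCharacter G, (χ : G → ℂ) v ^ 2 / (χ : G → ℂ) 1 * conj ((χ : G → ℂ) x) := by
  classical
  open Cfsg.Agent.Lib.Block in
  have hz : IsCentralElt (classSum v * classSum v) :=
    isCentralElt_mul (isCentralElt_classSum v) (isCentralElt_classSum v)
  open Cfsg.Agent.Lib.Block in
  have h1 := coeff_central_eq hz x
  open Cfsg.Agent.Lib.Block in
  have h2 : (classSum v * classSum v).coeff x =
      ((Finset.univ.filter (fun a : G => IsConj v a ∧ IsConj v (a⁻¹ * x))).card : ℂ) := by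
    rw [coeff_mul_eq]
    simp only [coeff_classSum]
    rw [Finset.card_filter]
    push_cast
    refine Finset.sum_congr rfl fun a _ => ?_
    by_cases h3 : IsConj v a
    · by_cases h4 : IsConj v (a⁻¹ * x)
      · rw [if_pos h3, if_pos h4, if_pos (And.intro h3 h4)]; simp
      · rw [if_pos h3, if_neg h4, if_neg (fun h : IsConj v a ∧ IsConj v (a⁻¹ * x) => h4 h.2)]; simp
    · rw [if_neg h3, if_neg (fun h : IsConj v a ∧ IsConj v (a⁻¹ * x) => h3 h.1)]; simp
  open Cfsg.Agent.Lib.Block in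
  have h3 : ∀ χ : IrrCharacter G, tr (χ : G → ℂ) (classSum v * classSum v) =
      ((Subgroup.centralizer ({v} : Set G)).index : ℂ) ^ 2 * ((χ : G → ℂ) v ^ 2 / (χ : G → ℂ) 1) := by
    intro χ
    have hne := isIrr_one_ne_zero χ.2
    have h4 := om_mul χ.2 (isCentralElt_classSum v) (classSum v)
    have h5 : om (χ : G → ℂ) (classSum v) = ((Subgroup.centralizer ({v} : Set G)).index : ℂ) * (χ : G → ℂ) v / (χ : G → ℂ) 1 := by
      rw [om, tr_classSum (IsCharacter.isClassFunction (IsIrrCharacter.isCharacter χ.2))]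
    rw [h5, om] at h4
    rw [div_eq_iff hne] at h4
    rw [h4]
    field_simp
  rw [h2] at h1
  rw [h1]
  simp only [h3]
  have hcard := card_ne_zero_complex G
  rw [mul_comm, ← mul_assoc, mul_inv_cancel₀ hcard, one_mul, Finset.mul_sum]
  refine Finset.sum_congr rfl fun χ _ => ?_
  ring

/-- Weighted sums of coefficient vectors. -/
theorem weight_unit {v : IrrCharacter G → ℤ} (hU : dot v v = 1) (g : G) :
    ∑ χ : IrrCharacter G, (χ : G → ℂ) g ^ 2 / (χ : G → ℂ) 1 * (v χ : ℂ) = Th v g ^ 2 / Th v 1 := by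
  classical
  obtain ⟨χ, s, hs, hv, hT⟩ := Th_cases hU
  rw [hT, hT, Finset.sum_eq_single χ]
  · rw [hv χ, if_pos rfl]
    have hne := map_one_ne_zero_of_irr χ.2
    rcases hs with rfl | rfl
    · simp
    · push_cast
      field_simp
  · intro b _ hb
    rw [hv b, if_neg hb]
    simp
  · intro hh; exact absurd (Finset.mem_univ _) hh

open Classical in
/-- The class formula at a chosen element, through the signed characters. -/
theorem class_formula' {θ : Fin 15 → IrrCharacter G → ℤ} (h1 : ∀ l, dot (θ l) (θ l) = 1)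
    (h4 : ∀ l, tl P l = ∑ χ, ((θ (lb l) χ - ∑ a, mult l a * θ (la a) χ : ℤ) : ℂ) • (χ : G → ℂ))
    (v : G) {x : M} (hx : inL x = true) :
    ((Finset.univ.filter (fun a : G => IsConj v a ∧ IsConj v (a⁻¹ * PP P x))).card : ℂ) * (Nat.card G : ℂ) =
      ((Subgroup.centralizer ({v} : Set G)).index : ℂ) ^ 2 *
        (∑ a, (lamZ a x : ℂ) * (Th (θ (la a)) v ^ 2 / Th (θ (la a)) 1) +
          ∑ l, ((fn (lb l) x).1 : ℂ) * (Th (θ (lb l)) v ^ 2 / Th (θ (lb l)) 1)) := by
  rw [class_formula]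
  congr 1
  simp only [expand P h4 hx, mul_add, Finset.sum_add_distrib, Finset.mul_sum]
  congr 1
  · rw [Finset.sum_comm]
    refine Finset.sum_congr rfl fun a _ => ?_
    rw [← weight_unit (h1 _) v, Finset.mul_sum]
    refine Finset.sum_congr rfl fun χ _ => ?_
    ring
  · rw [Finset.sum_comm]
    refine Finset.sum_congr rfl fun a _ => ?_
    rw [← weight_unit (h1 _) v, Finset.mul_sum]
    refine Finset.sum_congr rfl fun χ _ => ?_
    ring

end Cfsg.Agent.Lib.H108
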